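import Cfsg.Agent.H946.ExcSameF4

/-!
# S3691, row `F₄(q)`: groups of Lie type in characteristic `p` of order dividing `|F₄(q)|` (helper946)

`TS p f b c cT g`: a group of order `c` with the name `g` over `p ^ b`, `c ∣ cT`, the order of `F₄(p ^ f)`.

* `TS.top12` : if a prime `r` with `ord_r(p) = 12 f` divides `c` then `top g * b = 12 * f`;
* `TS.top8` : if a prime `r` with `ord_r(p) = 8 f` divides `c`, and none with `ord_r(p) = 12 f`, then `top g * b = 8 * f`;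
* `list_C` : the names with `ex g ≤ 3 top g`.
-/

set_option autoImplicit false

namespace Cfsg.Agent.H946.RgF4

open Cfsg Cfsg.Agent.OrdDiv Cfsg.Agent.H436 Cfsg.Agent.H425.PartP Cfsg.Agent.H425.Chr Cfsg.Agent.H946.Exc

/-- the orders of a group of Lie type of characteristic `p` and of `F₄(p ^ f)` -/
structure TS (p f b c cT : ℕ) (g : Grp) : Prop where
  T : Dt p f cT (.f4 (p ^ f))
  S : Dt p b c g
  dvd : c ∣ cT

variable {p f b c cT : ℕ} {g : Grp}

theorem TS.pos (H : TS p f b c cT g) : 0 < f ∧ 0 < b :=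
  ⟨Nat.pos_of_ne_zero H.T.hf, Nat.pos_of_ne_zero H.S.hf⟩

/-- a class of the subgroup is a class of `F₄` -/
theorem TS.cls (H : TS p f b c cT g) {e : ℕ} (he : 3 ≤ e) (h6 : ¬ (p = 2 ∧ e = 6)) (h : Kc g (e / Nat.gcd e b)) :
    Kc (.f4 (p ^ f)) (e / Nat.gcd e f) := by
  obtain ⟨w, hw, hwc⟩ := (H.S.in_iff he h6).2 h
  exact (H.T.dvd_iff he hw).1 (hwc.trans H.dvd)

theorem TS.k1 (H : TS p f b c cT g) {x : ℕ} (k l m d₁ d₂ : ℕ) (hx : 0 < x) (ha : f = m * x) (hb : b = l * x)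
    (he : 3 ≤ k * x) (h6 : ¬ (p = 2 ∧ k * x = 6)) (e1 : k / Nat.gcd k l = d₁) (h1 : Kc g d₁)
    (e2 : k / Nat.gcd k m = d₂) (h2 : ¬ (d₂ = 1 ∨ d₂ = 2 ∨ d₂ = 3 ∨ d₂ = 4 ∨ d₂ = 6 ∨ d₂ = 8 ∨ d₂ = 12)) : False := by
  have h3 := H.cls he h6 (by rw [hb, quot_mul hx, e1]; exact h1)
  rw [ha, quot_mul hx, e2] at h3
  exact h2 h3.f4

/-- the class 8 of `F₄` is not a class of the subgroup -/
theorem TS.no8 (_H : TS p f b c cT g) (h8 : ¬ Kc g (8 * f / Nat.gcd (8 * f) b)) {x : ℕ} (l m d : ℕ) (hx : 0 < x)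
    (ha : f = m * x) (hb : b = l * x) (e : 8 * m / Nat.gcd (8 * m) l = d) (h : Kc g d) : False := by
  apply h8
  rw [ha, hb, ← mul_assoc, quot_mul hx, e]
  exact h

theorem TS.qne (H : TS p f b c cT g) : qOf g ≠ 0 := by
  rw [H.S.hq]; exact (pow_pos H.S.hp.pos b).ne'

theorem TS.ge_of (H : TS p f b c cT g) {e r : ℕ} (he : 3 ≤ e) (hr : Prim p e r) (hrc : r ∣ c) : e ≤ top g * b := by
  have hb := H.pos.2
  have h1 := Kc_le_top H.S.cond H.qne ((H.S.dvd_iff he hr).1 hrc)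
  have h7 : e = e / Nat.gcd e b * Nat.gcd e b := (Nat.div_mul_cancel (Nat.gcd_dvd_left _ _)).symm
  rw [h7]
  exact Nat.mul_le_mul h1 (Nat.le_of_dvd hb (Nat.gcd_dvd_right _ _))

/-- the top class -/
theorem TS.topcls (H : TS p f b c cT g) (he : 7 ≤ top g * b) : ∃ v, Prim p (top g * b) v ∧ v ∣ c ∧
    Kc (.f4 (p ^ f)) (top g * b / Nat.gcd (top g * b) f) := by
  have hb := H.pos.2
  have h1 : Kc g (top g * b / Nat.gcd (top g * b) b) := by
    have := quot_mul (k := top g) (l := 1) hb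
    rw [one_mul, Nat.gcd_one_right, Nat.div_one] at this
    rw [this]
    exact Kc_top' H.S.cond H.qne
  obtain ⟨v, hv, hvc⟩ := (H.S.in_iff (by omega) (by omega)).2 h1
  exact ⟨v, hv, hvc, (H.T.dvd_iff (by omega) hv).1 (hvc.trans H.dvd)⟩

theorem TS.top12 (H : TS p f b c cT g) {r : ℕ} (hr : Prim p (12 * f) r) (hrc : r ∣ c) : top g * b = 12 * f := by
  have hf := H.pos.1
  have h1 := H.ge_of (by omega) hr hrc
  obtain ⟨v, -, -, hv⟩ := H.topcls (by omega)
  have h5 : top g * b / Nat.gcd (top g * b) f ≤ 12 := by have := hv.f4; omega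
  have h7 : top g * b = top g * b / Nat.gcd (top g * b) f * Nat.gcd (top g * b) f :=
    (Nat.div_mul_cancel (Nat.gcd_dvd_left _ _)).symm
  have h8 := Nat.mul_le_mul h5 (Nat.le_of_dvd hf (Nat.gcd_dvd_right (top g * b) f))
  omega

theorem TS.top8 (H : TS p f b c cT g) {r : ℕ} (hr : Prim p (8 * f) r) (hrc : r ∣ c)
    (h12 : ∀ w, Prim p (12 * f) w → ¬ w ∣ c) : top g * b = 8 * f := by
  have hf := H.pos.1
  have h1 := H.ge_of (by omega) hr hrc
  obtain ⟨v, hv, hvc, hK⟩ := H.topcls (by omega)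
  have h7 : top g * b = top g * b / Nat.gcd (top g * b) f * Nat.gcd (top g * b) f :=
    (Nat.div_mul_cancel (Nat.gcd_dvd_left _ _)).symm
  have h8 := Nat.gcd_dvd_right (top g * b) f
  set j := top g * b / Nat.gcd (top g * b) f with hj
  set e := Nat.gcd (top g * b) f with he
  have hj' := hK.f4
  obtain ⟨k, hk⟩ := h8
  have he0 : 0 < e := by
    rcases Nat.eq_zero_or_pos e with h | h
    · rw [h, zero_mul] at hk; omega
    · exact h
  have hk0 : 0 < k := by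
    rcases Nat.eq_zero_or_pos k with h | h
    · rw [h, mul_zero] at hk; omega
    · exact h
  have h9 : 8 * (e * k) ≤ j * e := by rw [← hk]; omega
  have h10 : 8 * k ≤ j := by
    apply Nat.le_of_mul_le_mul_right _ he0
    calc 8 * k * e = 8 * (e * k) := by ring
      _ ≤ j * e := h9
  have hk1 : k = 1 := by omega
  rw [hk1, mul_one] at hk
  rcases (show j = 8 ∨ j = 12 by omega) with h | h
  · rw [h7, h, ← hk]
  · exfalso
    rw [h, ← hk] at h7
    rw [h7] at hv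
    exact h12 v hv hvc

theorem TS.all (H : TS p f b c cT g) {e r w : ℕ} (he : 3 ≤ e) (hr : Prim p e r) (hrc : r ∣ c) (hw : Prim p e w) :
    w ∣ c := (H.S.dvd_iff he hw).2 ((H.S.dvd_iff he hr).1 hrc)

theorem TS.ex_le (H : TS p f b c cT g) {k : ℕ} (h : top g * b = k * f) : ex g * k ≤ top g * 24 := by
  have hf := H.pos.1
  have h1 : c.factorization p ≤ cT.factorization p :=
    (Nat.factorization_le_iff_dvd H.S.hc H.T.hc).2 H.dvd p
  rw [H.S.fac, H.T.fac] at h1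
  have h24 : ex (.f4 (p ^ f)) = 24 := rfl
  rw [h24] at h1
  by_contra hlt
  push Not at hlt
  have h2 : top g * 24 * f < ex g * k * f := Nat.mul_lt_mul_of_pos_right hlt hf
  have h3 : ex g * k * f = top g * (b * ex g) := by
    calc ex g * k * f = ex g * (k * f) := by ring
      _ = ex g * (top g * b) := by rw [h]
      _ = _ := by ring
  have h4 : top g * (b * ex g) ≤ top g * (f * 24) := Nat.mul_le_mul_left _ h1
  have h5 : top g * (f * 24) = top g * 24 * f := by ring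
  omega

/-- the names with `ex g ≤ 3 top g` -/
theorem list_C {g : Grp} (hg : Cond g) (hq : qOf g ≠ 0) (h : ex g ≤ 3 * top g) :
    (∃ n u, n ≤ 7 ∧ g = .psl n u) ∨ (∃ m u, m ≤ 6 ∧ g = .psp m u) ∨ (∃ m u, m ≤ 6 ∧ g = .oodd m u) ∨
      (∃ n u, g = .psu n u) ∨ (∃ m u, m ≤ 6 ∧ g = .oplus m u) ∨ (∃ m u, m ≤ 7 ∧ g = .ominus m u) ∨
      (∃ u, g = .g2 u) ∨ (∃ u, g = .f4 u) ∨ (∃ u, g = .e6 u) ∨ (∃ u, g = .te6 u) ∨ (∃ u, g = .td4 u) ∨
      (∃ u, g = .sz u) ∨ (∃ u, g = .ree u) ∨ (∃ u, g = .tf4 u) := by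
  cases g with
  | psl n u =>
    have h1 : 2 ≤ n := hg.1
    have h2 : n * (n - 1) / 2 ≤ 3 * n := h
    have h3 : n ≤ 7 := by
      by_contra h4
      have h5 : n * 7 ≤ n * (n - 1) := Nat.mul_le_mul_left n (by omega)
      omega
    exact Or.inl ⟨n, u, h3, rfl⟩
  | psp m u =>
    have h2 : m ^ 2 ≤ 3 * (2 * m) := h
    have h1 : 2 ≤ m := hg.1
    have h3 : m ≤ 6 := by
      by_contra h4
      have h5 : m * 7 ≤ m * m := Nat.mul_le_mul_left m (by omega)
      rw [sq] at h2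
      omega
    exact Or.inr (Or.inl ⟨m, u, h3, rfl⟩)
  | oodd m u =>
    have h2 : m ^ 2 ≤ 3 * (2 * m) := h
    have h1 : 3 ≤ m := hg.1
    have h3 : m ≤ 6 := by
      by_contra h4
      have h5 : m * 7 ≤ m * m := Nat.mul_le_mul_left m (by omega)
      rw [sq] at h2
      omega
    exact Or.inr (Or.inr (Or.inl ⟨m, u, h3, rfl⟩))
  | psu n u => exact Or.inr (Or.inr (Or.inr (Or.inl ⟨n, u, rfl⟩)))
  | oplus m u =>
    have h1 : 4 ≤ m := hg.1
    have h2 : m * (m - 1) ≤ 3 * (2 * (m - 1)) := h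
    have h3 : m ≤ 6 := by
      by_contra h4
      have h5 : 7 * (m - 1) ≤ m * (m - 1) := Nat.mul_le_mul_right _ (by omega)
      omega
    exact Or.inr (Or.inr (Or.inr (Or.inr (Or.inl ⟨m, u, h3, rfl⟩))))
  | ominus m u =>
    have h1 : 4 ≤ m := hg.1
    have h2 : m * (m - 1) ≤ 3 * (2 * m) := h
    have h3 : m ≤ 7 := by
      by_contra h4
      have h5 : m * 7 ≤ m * (m - 1) := Nat.mul_le_mul_left m (by omega)
      omega
    exact Or.inr (Or.inr (Or.inr (Or.inr (Or.inr (Or.inl ⟨m, u, h3, rfl⟩)))))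
  | g2 u => simp
  | f4 u => simp
  | e6 u => simp
  | e7 u => exact absurd h (by change ¬ (63 ≤ 3 * 18); norm_num)
  | e8 u => exact absurd h (by change ¬ (120 ≤ 3 * 30); norm_num)
  | te6 u => simp
  | td4 u => simp
  | sz u => simp
  | ree u => simp
  | tf4 u => simp
  | _ => exact absurd rfl hq

end Cfsg.Agent.H946.RgF4
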