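import Cfsg.Agent.H946.RgF4.Cls

/-!
# S3691, row `F₄(q)`: the sizes of the groups of Lie type in characteristic `p` (helper946)

`W p c` : the part of `c` prime to `p`.

* `type12` : a class 12 group without class 8;
* `type8` : a class 8 group without class 12.
-/

set_option autoImplicit false

namespace Cfsg.Agent.H946.RgF4

open Cfsg Cfsg.Agent.OrdDiv Cfsg.Agent.H436 Cfsg.Agent.H425.PartP Cfsg.Agent.H425.Chr Cfsg.Agent.H946.Exc

/-- the part prime to `p` -/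
def W (p c : ℕ) : ℕ := c / p ^ c.factorization p

theorem W_mul (p c : ℕ) : p ^ c.factorization p * W p c = c := Nat.ordProj_mul_ordCompl_eq_self c p

variable {p f b c cT : ℕ} {g : Grp}

theorem w_eq (H : Dt p b c g) {R d : ℕ} (h : d * c = (p ^ b) ^ ex g * R) : d * W p c = R := by
  have h1 := W_mul p c
  rw [H.fac, pow_mul] at h1
  have h2 : 0 < (p ^ b) ^ ex g := pow_pos (pow_pos H.hp.pos _) _
  apply Nat.eq_of_mul_eq_mul_left h2
  rw [← h, ← h1]
  rw [show (p ^ b) ^ ex g * W p c = c from h1]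
  calc (p ^ b) ^ ex g * (d * W p c) = d * ((p ^ b) ^ ex g * W p c) := by ring
    _ = _ := by rw [h1]

theorem s25 {q k : ℕ} (hq : 5 ≤ q) (hk : 2 ≤ k) : 24 * q ^ k ≤ 25 * (q ^ k - 1) := by
  have h1 : 5 ^ 2 ≤ q ^ k := (Nat.pow_le_pow_left hq 2).trans (Nat.pow_le_pow_right (by omega) hk)
  omega

theorem s5 {q : ℕ} (hq : 5 ≤ q) : 4 * q ≤ 5 * (q - 1) := by omega

theorem pow_step {q k : ℕ} (hq : 5 ≤ q) : 5 * q ^ k ≤ q ^ (k + 1) := by
  rw [pow_succ, mul_comm]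
  exact Nat.mul_le_mul_left _ hq

theorem pow_le' {q k l : ℕ} (hq : 5 ≤ q) (h : k ≤ l) : q ^ k ≤ q ^ l := Nat.pow_le_pow_right (by omega) h

/-! ### the numbers -/

section num

variable {q w : ℕ} (hq : 5 ≤ q)

include hq

theorem n_psl2 {d : ℕ} (hd : d ≤ 2) (h : d * w = q ^ 12 - 1) : q ^ 9 ≤ 2 * w := by
  have h1 := s25 hq (k := 12) (by norm_num)
  have h2 := pow_le' hq (show 9 ≤ 11 by norm_num)
  have h3 := pow_step hq (k := 11)
  have h4 := Nat.mul_le_mul_right w hd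
  norm_num at h3
  omega

theorem n_psu3 {d : ℕ} (hd : d ≤ 3) (h : d * w = (q ^ 4 - 1) * (q ^ 6 + 1)) : q ^ 9 ≤ 2 * w := by
  have h1 := s25 hq (k := 4) (by norm_num)
  have h2 : 24 * q ^ 4 * q ^ 6 ≤ 25 * (q ^ 4 - 1) * (q ^ 6 + 1) := Nat.mul_le_mul h1 (Nat.le_succ _)
  have h3 := pow_step hq (k := 9)
  have h4 := Nat.mul_le_mul_right w hd
  have h5 : 24 * q ^ 4 * q ^ 6 = 24 * q ^ 10 := by ring
  have h6 : 25 * (q ^ 4 - 1) * (q ^ 6 + 1) = 25 * (d * w) := by rw [h]; ring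
  norm_num at h3
  omega

theorem n_sz (h : 1 * w = (q ^ 3 - 1) * (q ^ 6 + 1)) : q ^ 9 ≤ 2 * w := by
  have h1 := s25 hq (k := 3) (by norm_num)
  have h2 : 24 * q ^ 3 * q ^ 6 ≤ 25 * (q ^ 3 - 1) * (q ^ 6 + 1) := Nat.mul_le_mul h1 (Nat.le_succ _)
  have h5 : 24 * q ^ 3 * q ^ 6 = 24 * q ^ 9 := by ring
  have h6 : 25 * (q ^ 3 - 1) * (q ^ 6 + 1) = 25 * (1 * w) := by rw [h]; ring
  omega

theorem n_psp2 {d : ℕ} (hd : d ≤ 2) (h : d * w = (q ^ 6 - 1) * (q ^ 12 - 1)) : q ^ 13 ≤ w := by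
  have h1 := s25 hq (k := 6) (by norm_num)
  have h2 := s25 hq (k := 12) (by norm_num)
  have h3 := Nat.mul_le_mul h1 h2
  have h4 := Nat.mul_le_mul_right w hd
  have h5 : 24 * q ^ 6 * (24 * q ^ 12) = 576 * q ^ 18 := by ring
  have h6 : 25 * (q ^ 6 - 1) * (25 * (q ^ 12 - 1)) = 625 * (d * w) := by rw [h]; ring
  have h7 := pow_step hq (k := 17)
  have h8 := pow_le' hq (show 13 ≤ 17 by norm_num)
  norm_num at h7
  omega

theorem n_g2 (h : 1 * w = (q ^ 4 - 1) * (q ^ 12 - 1)) : q ^ 13 ≤ w := by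
  have h1 := s25 hq (k := 4) (by norm_num)
  have h2 := s25 hq (k := 12) (by norm_num)
  have h3 := Nat.mul_le_mul h1 h2
  have h5 : 24 * q ^ 4 * (24 * q ^ 12) = 576 * q ^ 16 := by ring
  have h6 : 25 * (q ^ 4 - 1) * (25 * (q ^ 12 - 1)) = 625 * (1 * w) := by rw [h]; ring
  have h7 := pow_step hq (k := 15)
  have h8 := pow_le' hq (show 13 ≤ 15 by norm_num)
  norm_num at h7
  omega

theorem n_td4 (h : 1 * w = (q ^ 2 - 1) * (q ^ 6 - 1) * (q ^ 8 + q ^ 4 + 1)) : q ^ 13 ≤ w := by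
  have h1 := s25 hq (k := 2) (by norm_num)
  have h2 := s25 hq (k := 6) (by norm_num)
  have h3 := Nat.mul_le_mul (Nat.mul_le_mul h1 h2) (show q ^ 8 ≤ q ^ 8 + q ^ 4 + 1 by omega)
  have h5 : 24 * q ^ 2 * (24 * q ^ 6) * q ^ 8 = 576 * q ^ 16 := by ring
  have h6 : 25 * (q ^ 2 - 1) * (25 * (q ^ 6 - 1)) * (q ^ 8 + q ^ 4 + 1) = 625 * (1 * w) := by rw [h]; ring
  have h7 := pow_step hq (k := 15)
  have h8 := pow_le' hq (show 13 ≤ 15 by norm_num)
  norm_num at h7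
  omega

theorem n_tf4 (h : 1 * w = (q - 1) * (q ^ 3 + 1) * (q ^ 4 - 1) * (q ^ 6 + 1)) : q ^ 13 ≤ w := by
  have h1 := s5 hq
  have h2 := s25 hq (k := 4) (by norm_num)
  have h3 := Nat.mul_le_mul (Nat.mul_le_mul (Nat.mul_le_mul h1 (Nat.le_succ (q ^ 3))) h2) (Nat.le_succ (q ^ 6))
  have h5 : 4 * q * q ^ 3 * (24 * q ^ 4) * q ^ 6 = 96 * q ^ 14 := by ring
  have h6 : 5 * (q - 1) * (q ^ 3).succ * (25 * (q ^ 4 - 1)) * (q ^ 6).succ = 125 * (1 * w) := by
    rw [h, Nat.succ_eq_add_one, Nat.succ_eq_add_one]; ring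
  have h7 := pow_step hq (k := 13)
  norm_num at h7
  omega

theorem n_psl4 {d : ℕ} (hd : d ≤ 4) (h : d * w = (q ^ 4 - 1) * (q ^ 6 - 1) * (q ^ 8 - 1)) : q ^ 15 ≤ w := by
  have h1 := s25 hq (k := 4) (by norm_num)
  have h2 := s25 hq (k := 6) (by norm_num)
  have h2' := s25 hq (k := 8) (by norm_num)
  have h3 := Nat.mul_le_mul (Nat.mul_le_mul h1 h2) h2'
  have h4 := Nat.mul_le_mul_right w hd
  have h5 : 24 * q ^ 4 * (24 * q ^ 6) * (24 * q ^ 8) = 13824 * q ^ 18 := by ring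
  have h6 : 25 * (q ^ 4 - 1) * (25 * (q ^ 6 - 1)) * (25 * (q ^ 8 - 1)) = 15625 * (d * w) := by rw [h]; ring
  have h7 := pow_step hq (k := 17)
  have h8 := pow_le' hq (show 15 ≤ 17 by norm_num)
  norm_num at h7
  omega

theorem n_ominus4 {d : ℕ} (hd : d ≤ 4) (h : d * w = (q ^ 4 + 1) * ((q ^ 2 - 1) * (q ^ 4 - 1) * (q ^ 6 - 1))) :
    q ^ 15 ≤ w := by
  have h1 := s25 hq (k := 2) (by norm_num)
  have h2 := s25 hq (k := 4) (by norm_num)
  have h2' := s25 hq (k := 6) (by norm_num)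
  have h3 := Nat.mul_le_mul (show q ^ 4 ≤ q ^ 4 + 1 by omega) (Nat.mul_le_mul (Nat.mul_le_mul h1 h2) h2')
  have h4 := Nat.mul_le_mul_right w hd
  have h5 : q ^ 4 * (24 * q ^ 2 * (24 * q ^ 4) * (24 * q ^ 6)) = 13824 * q ^ 16 := by ring
  have h6 : (q ^ 4 + 1) * (25 * (q ^ 2 - 1) * (25 * (q ^ 4 - 1)) * (25 * (q ^ 6 - 1))) = 15625 * (d * w) := by
    rw [h]; ring
  have h7 := pow_step hq (k := 15)
  norm_num at h7
  omega

theorem n_psp4 {d : ℕ} (hd : d ≤ 2) (h : d * w = (q ^ 2 - 1) * (q ^ 4 - 1) * (q ^ 6 - 1) * (q ^ 8 - 1)) :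
    2 * q ^ 19 ≤ w := by
  have h1 := s25 hq (k := 2) (by norm_num)
  have h2 := s25 hq (k := 4) (by norm_num)
  have h2' := s25 hq (k := 6) (by norm_num)
  have h2'' := s25 hq (k := 8) (by norm_num)
  have h3 := Nat.mul_le_mul (Nat.mul_le_mul (Nat.mul_le_mul h1 h2) h2') h2''
  have h4 := Nat.mul_le_mul_right w hd
  have h5 : 24 * q ^ 2 * (24 * q ^ 4) * (24 * q ^ 6) * (24 * q ^ 8) = 331776 * q ^ 20 := by ring
  have h6 : 25 * (q ^ 2 - 1) * (25 * (q ^ 4 - 1)) * (25 * (q ^ 6 - 1)) * (25 * (q ^ 8 - 1)) = 390625 * (d * w) := by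
    rw [h]; ring
  have h7 := pow_step hq (k := 19)
  norm_num at h7
  omega

end num

theorem prB_two (u : ℕ) : prB u 2 = (u ^ 2 - 1) * (u ^ 4 - 1) := by
  unfold prB
  simp only [List.range_succ, List.range_zero, List.nil_append, List.map_cons, List.map_nil,
    List.prod_cons, List.prod_nil, mul_one, List.cons_append]

theorem prB_four (u : ℕ) : prB u 4 = (u ^ 2 - 1) * (u ^ 4 - 1) * (u ^ 6 - 1) * (u ^ 8 - 1) := by
  unfold prB
  simp only [List.range_succ, List.range_zero, List.nil_append, List.map_append, List.map_cons, List.map_nil,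
    List.prod_append, List.prod_cons, List.prod_nil, mul_one, List.cons_append]
  ring

/-! ### class 12 -/

theorem gcd_le' {a b : ℕ} (ha : 0 < a) : Nat.gcd a b ≤ a := Nat.gcd_le_left b ha

theorem type12 (H : TS p f b c cT g) (ht : top g * b = 12 * f) (h8 : ¬ Kc g (8 * f / Nat.gcd (8 * f) b))
    (hq5 : 5 ≤ p ^ f) :
    (c.factorization p ≤ 6 * f ∧ (p ^ f) ^ 9 ≤ 2 * W p c) ∨ (c.factorization p ≤ 12 * f ∧ (p ^ f) ^ 13 ≤ W p c) := by
  obtain ⟨hf, hb⟩ := H.pos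
  have h2 := H.ex_le ht
  have h3 : ex g ≤ 2 * top g := by omega
  have hu := H.S.hq
  have hfac := H.S.fac
  have hp2 := H.S.hp.two_le
  rcases list_B H.S.cond H.qne h3 with ⟨n, u, hn, rfl⟩ | ⟨m, u, hm, rfl⟩ | ⟨m, u, hm, rfl⟩ | ⟨n, u, hn, rfl⟩ |
    ⟨u, rfl⟩ | ⟨m, u, hm, rfl⟩ | ⟨u, rfl⟩ | ⟨u, rfl⟩ | ⟨u, rfl⟩ | ⟨u, rfl⟩ | ⟨u, rfl⟩ | ⟨u, rfl⟩ | ⟨u, rfl⟩
  · -- PSL
    have h4 : n * b = 12 * f := ht
    have hn2 : 2 ≤ n := H.S.cond.1
    rcases (show n = 2 ∨ n = 3 ∨ n = 4 ∨ n = 5 by omega) with rfl | rfl | rfl | rfl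
    · left
      obtain rfl : b = f * 6 := by omega
      obtain rfl : u = p ^ (f * 6) := hu
      refine ⟨by rw [hfac]; change f * 6 * 1 ≤ _; omega, ?_⟩
      have h5 : Nat.gcd 2 (p ^ (f * 6) - 1) * (p ^ (f * 6) - 1) * c =
        ((List.range 2).map fun i => (p ^ (f * 6)) ^ 2 - (p ^ (f * 6)) ^ i).prod := H.S.eq
      have h6 : ((List.range 2).map fun i => (p ^ (f * 6)) ^ 2 - (p ^ (f * 6)) ^ i).prod =
          (p ^ (f * 6) - 1) * (p ^ (f * 6) * ((p ^ (f * 6)) ^ 2 - 1)) := by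
        have h7 : (p ^ (f * 6)) ^ 2 - p ^ (f * 6) = p ^ (f * 6) * (p ^ (f * 6) - 1) := by
          rw [Nat.mul_sub, mul_one, sq]
        simp only [List.range_succ, List.range_zero, List.nil_append, List.map_append, List.map_cons, List.map_nil,
          List.prod_append, List.prod_cons, List.prod_nil, pow_zero, pow_one, mul_one, one_mul, List.cons_append]
        rw [h7]; ring
      rw [h6, mul_comm (Nat.gcd 2 (p ^ (f * 6) - 1)), mul_assoc] at h5
      have h8' := H.S.two_le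
      have h9 := Nat.eq_of_mul_eq_mul_left (show 0 < p ^ (f * 6) - 1 by omega) h5
      have h10 : (p ^ (f * 6)) ^ ex (.psl 2 (p ^ (f * 6))) = p ^ (f * 6) := pow_one _
      have h11 := w_eq H.S (R := (p ^ (f * 6)) ^ 2 - 1) (by rw [h10]; exact h9)
      have h12 : (p ^ (f * 6)) ^ 2 = (p ^ f) ^ 12 := by rw [← pow_mul, ← pow_mul]; ring_nf
      rw [h12] at h11
      exact n_psl2 hq5 (gcd_le' two_pos) h11
    · exfalso
      exact H.no8 h8 4 1 2 hf (by omega) (by omega) (by decide) (.low (by exact id) (by norm_num) le_rfl)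
    · exfalso
      exact H.k1 9 3 1 3 9 hf (by omega) (by omega) (by omega) (by omega) (by decide)
        (Or.inl ⟨by norm_num, by change 3 ≤ 4; norm_num⟩) (by decide) (by omega)
    · exfalso
      obtain ⟨h, rfl, rfl⟩ : ∃ h, f = 5 * h ∧ b = 12 * h := ⟨b - 2 * f - (f - (b - 2 * f) * 2), by omega, by omega⟩
      have hh : 0 < h := by omega
      exact H.k1 48 12 5 4 48 hh rfl rfl (by omega) (by omega) (by decide)
        (Or.inl ⟨by norm_num, by change 4 ≤ 5; norm_num⟩) (by decide) (by omega)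
  · -- PSp
    have h4 : 2 * m * b = 12 * f := ht
    have hm2 : 2 ≤ m := H.S.cond.1
    rcases (show m = 2 ∨ m = 3 ∨ m = 4 by omega) with rfl | rfl | rfl
    · right
      obtain rfl : b = f * 3 := by omega
      obtain rfl : u = p ^ (f * 3) := hu
      refine ⟨by rw [hfac]; change f * 3 * 2 ^ 2 ≤ _; omega, ?_⟩
      have h5 : Nat.gcd 2 (p ^ (f * 3) - 1) * c = (p ^ (f * 3)) ^ (2 ^ 2) * prB (p ^ (f * 3)) 2 := H.S.eq
      have h11 := w_eq H.S h5
      rw [prB_two] at h11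
      have h12 : (p ^ (f * 3)) ^ 2 = (p ^ f) ^ 6 := by rw [← pow_mul, ← pow_mul]; ring_nf
      have h13 : (p ^ (f * 3)) ^ 4 = (p ^ f) ^ 12 := by rw [← pow_mul, ← pow_mul]; ring_nf
      rw [h12, h13] at h11
      exact n_psp2 hq5 (gcd_le' two_pos) h11
    · exfalso
      exact H.no8 h8 2 1 4 hf (by omega) (by omega) (by decide)
        (Or.inl ⟨by norm_num, (K_psp (by norm_num)).2 (by norm_num)⟩)
    · exfalso
      obtain ⟨h, rfl, rfl⟩ : ∃ h, f = 2 * h ∧ b = 3 * h := ⟨b - f, by omega, by omega⟩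
      have hh : 0 < h := by omega
      exact H.k1 18 3 2 6 9 hh rfl rfl (by omega) (by omega) (by decide)
        (Or.inl ⟨by norm_num, (K_psp (by norm_num)).2 (by norm_num)⟩) (by decide) (by omega)
  · -- PΩ odd
    exfalso
    have h4 : 2 * m * b = 12 * f := ht
    have hm2 : 3 ≤ m := H.S.cond.1
    rcases (show m = 3 ∨ m = 4 by omega) with rfl | rfl
    · exact H.no8 h8 2 1 4 hf (by omega) (by omega) (by decide)
        (Or.inl ⟨by norm_num, (K_oodd (by norm_num)).2 (by norm_num)⟩)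
    · obtain ⟨h, rfl, rfl⟩ : ∃ h, f = 2 * h ∧ b = 3 * h := ⟨b - f, by omega, by omega⟩
      have hh : 0 < h := by omega
      exact H.k1 18 3 2 6 9 hh rfl rfl (by omega) (by omega) (by decide)
        (Or.inl ⟨by norm_num, (K_oodd (by norm_num)).2 (by norm_num)⟩) (by decide) (by omega)
  · -- PSU
    have h4 : 2 * (n - (1 - n % 2)) * b = 12 * f := ht
    have hn2 : 3 ≤ n := H.S.cond.1
    rcases (show n = 3 ∨ n = 4 ∨ n = 5 ∨ n = 6 ∨ n = 7 ∨ n = 8 ∨ n = 9 by omega) with rfl | rfl | rfl | rfl | rfl | rfl |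
      rfl
    · left
      replace h4 : 6 * b = 12 * f := h4
      obtain rfl : b = f * 2 := by omega
      obtain rfl : u = p ^ (f * 2) := hu
      refine ⟨by rw [hfac]; change f * 2 * 3 ≤ _; omega, ?_⟩
      have h5 : Nat.gcd 3 (p ^ (f * 2) + 1) * (p ^ (f * 2) + 1) * c =
        (p ^ (f * 2)) ^ (3 * (3 - 1) / 2) * prU (p ^ (f * 2)) 3 := H.S.eq
      have hU : prU (p ^ (f * 2)) 3 = ((p ^ (f * 2)) ^ 1 + 1) * (((p ^ (f * 2)) ^ 2 - 1) * (((p ^ (f * 2)) ^ 3 + 1) *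
        1)) := rfl
      have h9 : Nat.gcd 3 (p ^ (f * 2) + 1) * c =
          (p ^ (f * 2)) ^ ex (.psu 3 (p ^ (f * 2))) * (((p ^ (f * 2)) ^ 2 - 1) * ((p ^ (f * 2)) ^ 3 + 1)) := by
        apply Nat.eq_of_mul_eq_mul_left (show 0 < p ^ (f * 2) + 1 by omega)
        change _ = (p ^ (f * 2) + 1) * ((p ^ (f * 2)) ^ (3 * (3 - 1) / 2) * _)
        rw [hU, pow_one] at h5
        calc (p ^ (f * 2) + 1) * (Nat.gcd 3 (p ^ (f * 2) + 1) * c)
            = Nat.gcd 3 (p ^ (f * 2) + 1) * (p ^ (f * 2) + 1) * c := by ring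
          _ = _ := h5
          _ = _ := by ring
      have h11 := w_eq H.S h9
      have h12 : (p ^ (f * 2)) ^ 2 = (p ^ f) ^ 4 := by rw [← pow_mul, ← pow_mul]; ring_nf
      have h13 : (p ^ (f * 2)) ^ 3 = (p ^ f) ^ 6 := by rw [← pow_mul, ← pow_mul]; ring_nf
      rw [h12, h13] at h11
      exact n_psu3 hq5 (gcd_le' three_pos) h11
    · exfalso
      replace h4 : 6 * b = 12 * f := h4
      exact H.no8 h8 2 1 4 hf (by omega) (by omega) (by decide)
        (Or.inl ⟨by norm_num, (K_psu (by norm_num)).2 (by norm_num)⟩)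
    · exfalso
      replace h4 : 10 * b = 12 * f := h4
      obtain ⟨h, rfl, rfl⟩ : ∃ h, f = 5 * h ∧ b = 6 * h := ⟨b - f, by omega, by omega⟩
      have hh : 0 < h := by omega
      exact H.k1 24 6 5 4 24 hh rfl rfl (by omega) (by omega) (by decide)
        (Or.inl ⟨by norm_num, (K_psu (by norm_num)).2 (by norm_num)⟩) (by decide) (by omega)
    · exfalso
      replace h4 : 10 * b = 12 * f := h4
      obtain ⟨h, rfl, rfl⟩ : ∃ h, f = 5 * h ∧ b = 6 * h := ⟨b - f, by omega, by omega⟩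
      have hh : 0 < h := by omega
      exact H.k1 24 6 5 4 24 hh rfl rfl (by omega) (by omega) (by decide)
        (Or.inl ⟨by norm_num, (K_psu (by norm_num)).2 (by norm_num)⟩) (by decide) (by omega)
    · exfalso
      replace h4 : 14 * b = 12 * f := h4
      obtain ⟨h, rfl, rfl⟩ : ∃ h, f = 7 * h ∧ b = 6 * h := ⟨f - b, by omega, by omega⟩
      have hh : 0 < h := by omega
      exact H.k1 24 6 7 4 24 hh rfl rfl (by omega) (by omega) (by decide)
        (Or.inl ⟨by norm_num, (K_psu (by norm_num)).2 (by norm_num)⟩) (by decide) (by omega)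
    · exfalso
      replace h4 : 14 * b = 12 * f := h4
      obtain ⟨h, rfl, rfl⟩ : ∃ h, f = 7 * h ∧ b = 6 * h := ⟨f - b, by omega, by omega⟩
      have hh : 0 < h := by omega
      exact H.k1 24 6 7 4 24 hh rfl rfl (by omega) (by omega) (by decide)
        (Or.inl ⟨by norm_num, (K_psu (by norm_num)).2 (by norm_num)⟩) (by decide) (by omega)
    · exfalso
      replace h4 : 18 * b = 12 * f := h4
      obtain ⟨h, rfl, rfl⟩ : ∃ h, f = 3 * h ∧ b = 2 * h := ⟨f - b, by omega, by omega⟩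
      have hh : 0 < h := by omega
      exact H.k1 20 2 3 10 20 hh rfl rfl (by omega) (by omega) (by decide)
        (Or.inl ⟨by norm_num, (K_psu (by norm_num)).2 (by norm_num)⟩) (by decide) (by omega)
  · -- PΩ⁺₈
    exfalso
    have h4 : 2 * (4 - 1) * b = 12 * f := ht
    exact H.no8 h8 2 1 4 hf (by omega) (by omega) (by decide)
      (Or.inl ⟨by norm_num, (K_oplus (by norm_num) (by norm_num)).2 (by norm_num)⟩)
  · -- PΩ⁻
    exfalso
    have h4 : 2 * m * b = 12 * f := ht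
    have hm2 : 4 ≤ m := H.S.cond.1
    rcases (show m = 4 ∨ m = 5 by omega) with rfl | rfl
    · obtain ⟨h, rfl, rfl⟩ : ∃ h, f = 2 * h ∧ b = 3 * h := ⟨b - f, by omega, by omega⟩
      have hh : 0 < h := by omega
      exact H.k1 18 3 2 6 9 hh rfl rfl (by omega) (by omega) (by decide)
        (Or.inl ⟨by norm_num, (K_ominus (by norm_num) (by norm_num)).2 (by norm_num)⟩) (by decide) (by omega)
    · obtain ⟨h, rfl, rfl⟩ : ∃ h, f = 5 * h ∧ b = 6 * h := ⟨b - f, by omega, by omega⟩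
      have hh : 0 < h := by omega
      exact H.k1 24 6 5 4 24 hh rfl rfl (by omega) (by omega) (by decide)
        (Or.inl ⟨by norm_num, (K_ominus (by norm_num) (by norm_num)).2 (by norm_num)⟩) (by decide) (by omega)
  · -- G₂
    right
    have h4 : 6 * b = 12 * f := ht
    obtain rfl : b = f * 2 := by omega
    obtain rfl : u = p ^ (f * 2) := hu
    refine ⟨by rw [hfac]; change f * 2 * 6 ≤ _; omega, ?_⟩
    have h5 : 1 * c = (p ^ (f * 2)) ^ 6 * (((p ^ (f * 2)) ^ 2 - 1) * ((p ^ (f * 2)) ^ 6 - 1)) := H.S.eq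
    have h11 := w_eq H.S h5
    have h12 : (p ^ (f * 2)) ^ 2 = (p ^ f) ^ 4 := by rw [← pow_mul, ← pow_mul]; ring_nf
    have h13 : (p ^ (f * 2)) ^ 6 = (p ^ f) ^ 12 := by rw [← pow_mul, ← pow_mul]; ring_nf
    rw [h12, h13] at h11
    exact n_g2 hq5 h11
  · -- F₄
    exfalso
    have h4 : 12 * b = 12 * f := ht
    exact H.no8 h8 1 1 8 hf (by omega) (by omega) (by decide) K8
  · -- ²E₆
    exfalso
    have h4 : 18 * b = 12 * f := ht
    obtain ⟨h, rfl, rfl⟩ : ∃ h, f = 3 * h ∧ b = 2 * h := ⟨f - b, by omega, by omega⟩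
    have hh : 0 < h := by omega
    exact H.k1 20 2 3 10 20 hh rfl rfl (by omega) (by omega) (by decide)
      (Or.inl ⟨by norm_num, Or.inr (Or.inl ⟨dvd_rfl, by decide⟩)⟩) (by decide) (by omega)
  · -- ³D₄
    right
    have h4 : 12 * b = 12 * f := ht
    obtain rfl : b = f := by omega
    obtain rfl : u = p ^ b := hu
    refine ⟨by rw [hfac]; change b * 12 ≤ _; omega, ?_⟩
    have h5 : 1 * c = (p ^ b) ^ 12 * (((p ^ b) ^ 2 - 1) * ((p ^ b) ^ 6 - 1) * ((p ^ b) ^ 8 + (p ^ b) ^ 4 + 1)) := H.S.eq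
    exact n_td4 hq5 (w_eq H.S h5)
  · -- Sz
    left
    have h4 : 4 * b = 12 * f := ht
    obtain rfl : b = f * 3 := by omega
    obtain rfl : u = p ^ (f * 3) := hu
    refine ⟨by rw [hfac]; change f * 3 * 2 ≤ _; omega, ?_⟩
    have h5 : 1 * c = (p ^ (f * 3)) ^ 2 * ((p ^ (f * 3) - 1) * ((p ^ (f * 3)) ^ 2 + 1)) := H.S.eq
    have h11 := w_eq H.S h5
    have h12 : (p ^ (f * 3)) ^ 2 = (p ^ f) ^ 6 := by rw [← pow_mul, ← pow_mul]; ring_nf
    have h13 : p ^ (f * 3) = (p ^ f) ^ 3 := by rw [← pow_mul]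
    rw [h12, h13] at h11
    exact n_sz hq5 h11
  · -- Ree
    exfalso
    have h4 : 6 * b = 12 * f := ht
    have hp3 := three_of H.S.hp H.S.hf H.S.cond hu
    subst hp3
    obtain rfl : u = 3 ^ b := hu
    have := ree_odd H.S.cond rfl
    omega
  · -- ²F₄
    right
    have h4 : 12 * b = 12 * f := ht
    obtain rfl : b = f := by omega
    obtain rfl : u = p ^ b := hu
    refine ⟨by rw [hfac]; change b * 12 ≤ _; omega, ?_⟩
    have h5 : 1 * c = (p ^ b) ^ 12 * ((p ^ b - 1) * ((p ^ b) ^ 3 + 1) * ((p ^ b) ^ 4 - 1) * ((p ^ b) ^ 6 + 1)) := H.S.eq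
    exact n_tf4 hq5 (w_eq H.S h5)

end Cfsg.Agent.H946.RgF4
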