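import Mathlib
import Cfsg.Agent.H363.DQ.BigChar
import Cfsg.Agent.H946.RgF4.Typ
import Cfsg.Agent.H290.ElRich
import Cfsg.Agent.H56.Exc.Big

/-!
# S3691, row `F₄(q)`: sections in other characteristics have a small `p`-part (helper946)

`cross_small` : `S` a simple group of order dividing `|F₄(q)|`, `q = p ^ f`, with a big prime `r`, `ord_r(p) = c f`, `c = 12`
or `8`; then `S` is of Lie type in characteristic `p` or has a small `p`-part.

`alt_dvd`, `alt_le` are helper394's (`H394/Wei/G2Cls`, whose closure is large).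
-/

set_option autoImplicit false

namespace Cfsg.Agent.H946.RgF4

open Cfsg Cfsg.Agent.OrdDiv Cfsg.Agent.H436 Cfsg.Agent.H915.GN Cfsg.Agent.H264.GN Cfsg.Agent.H264.FKS
open Cfsg.Agent.H902 Cfsg.Agent.H902.Names Cfsg.Agent.H56.Exc

/-! ### alternating groups -/

/-- the automizer of an `r`-cycle -/
theorem alt_dvd {S : Type*} [Group S] [Finite S] {r m e : ℕ} (h : Big S r m e) (hr : r ∣ Nat.card S) (h3 : 3 ≤ r)
    {k : ℕ} (Φ : S ≃* alternatingGroup (Fin k)) : r - 1 ∣ 2 * e := by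
  have hp := h.prime
  have := Fact.mk hp
  have hb := h.congr Φ
  have hrk : r ≤ k := by
    have h1 : r ∣ k.factorial := by
      have h2 : r ∣ Nat.card (Equiv.Perm (Fin k)) :=
        (hr.trans (Nat.card_congr Φ.toEquiv).dvd).trans (_root_.Subgroup.card_subgroup_dvd_card _)
      rwa [Nat.card_perm, Nat.card_fin] at h2
    exact (hp.dvd_factorial).1 h1
  -- an `r`-cycle
  obtain ⟨σ, hσ⟩ : ∃ σ : Equiv.Perm (Fin k), σ.cycleType = {r} := by
    have := (Equiv.Perm.exists_with_cycleType_iff (Fin k) (m := {r})).2 ⟨by simpa using hrk, by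
      intro a ha
      rw [Multiset.mem_singleton] at ha
      rw [ha]; exact hp.two_le⟩
    exact this
  have hodd : Odd r := hp.odd_of_ne_two (by omega)
  have hσc : σ.IsCycle := by
    rw [← Equiv.Perm.card_cycleType_eq_one, hσ, Multiset.card_singleton]
  have hσo : orderOf σ = r := by
    rw [← Equiv.Perm.lcm_cycleType, hσ, Multiset.lcm_singleton, normalize_eq]
  have hσA : σ ∈ alternatingGroup (Fin k) := by
    rw [Equiv.Perm.mem_alternatingGroup, hσc.sign]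
    have h1 : σ.support.card = r := by rw [← hσo, hσc.orderOf]
    rw [h1, hodd.neg_one_pow, neg_neg]
  -- a generator of the units
  obtain ⟨g, hg⟩ := IsCyclic.exists_ofOrder_eq_natCard (α := (ZMod r)ˣ)
  rw [Nat.card_eq_fintype_card, ZMod.card_units r] at hg
  set n : ℕ := ZMod.val (g : ZMod r) with hn
  have hcop : n.Coprime (orderOf σ) := by rw [hσo]; exact ZMod.val_coe_unit_coprime g
  have hconj : IsConj σ (σ ^ n) := by
    rw [Equiv.Perm.isConj_iff_cycleType_eq, hσc.cycleType, (hσc.pow_iff.2 hcop).cycleType,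
      Equiv.Perm.support_pow_coprime hcop]
  obtain ⟨z, hz⟩ := isConj_iff.1 hconj
  have hpow : ∀ j : ℕ, z ^ j * σ * (z ^ j)⁻¹ = σ ^ (n ^ j) := by
    intro j
    induction j with
    | zero => simp
    | succ j ih =>
      calc z ^ (j + 1) * σ * (z ^ (j + 1))⁻¹ = z * (z ^ j * σ * (z ^ j)⁻¹) * z⁻¹ := by
            rw [pow_succ']; group
        _ = (z * σ * z⁻¹) ^ (n ^ j) := by rw [ih, conj_pow]
        _ = σ ^ (n ^ (j + 1)) := by rw [hz, ← pow_mul, pow_succ']
  have hzA : z ^ 2 ∈ alternatingGroup (Fin k) := by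
    rw [Equiv.Perm.mem_alternatingGroup, map_pow, Int.units_sq]
  have h1 := hb.aut ⟨σ, hσA⟩ ⟨z ^ 2, hzA⟩ (by rw [Subgroup.orderOf_mk, hσo]) ⟨((n ^ 2 : ℕ) : ℤ), by
    show (⟨σ, hσA⟩ : alternatingGroup (Fin k)) ^ ((n ^ 2 : ℕ) : ℤ) = _
    rw [zpow_natCast]
    exact Subtype.ext (hpow 2).symm⟩
  have h2 : (z ^ 2) ^ e * σ = σ * (z ^ 2) ^ e := congrArg Subtype.val h1.eq
  have h3 : σ ^ (n ^ (2 * e)) = σ := by
    rw [← hpow (2 * e), mul_inv_eq_iff_eq_mul]
    rw [← pow_mul] at h2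
    exact h2
  have h4 : g ^ (2 * e) = 1 := by
    apply Units.ext
    have h5 : n ^ (2 * e) ≡ 1 [MOD r] := by
      rw [← hσo]
      exact pow_eq_pow_iff_modEq.1 (by rw [h3, pow_one])
    have h6 := (ZMod.natCast_eq_natCast_iff _ _ _).2 h5
    rw [Nat.cast_pow, hn, ZMod.natCast_zmod_val, Nat.cast_one] at h6
    rw [Units.val_pow_eq_pow_val, h6, Units.val_one]
  exact hg ▸ orderOf_dvd_of_pow_eq_one h4

/-- the degree -/
theorem alt_le {S : Type*} [Group S] [Finite S] {r m e : ℕ} (h : Big S r m e) (hr : r ∣ Nat.card S) (h5 : 5 ≤ r)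
    {k : ℕ} (Φ : S ≃* alternatingGroup (Fin k)) : k ≤ r + 3 :=
  Cfsg.Agent.H290.ElRich.alt_le h.prime h5 Φ hr fun x hx => by
    have := h.cyc x hx
    let _ := IsCyclic.commGroup (α := ↥(Subgroup.centralizer ({x} : Set S)))
    infer_instance


/-! ### the slack -/

/-- the exponent of `p` in `96` -/
def sl (p : ℕ) : ℕ := if p = 2 then 5 else if p = 3 then 1 else 0

theorem two_pow_ge : ∀ f : ℕ, 8 * (f + 3) ≤ 3 * 2 ^ (f + 3) := by
  intro f
  induction f with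
  | zero => norm_num
  | succ f ih =>
    have : 2 ^ (f + 1 + 3) = 2 * 2 ^ (f + 3) := by ring
    omega

theorem three_pow_ge : ∀ f : ℕ, 9 * (f + 2) ≤ 2 * 3 ^ (f + 2) := by
  intro f
  induction f with
  | zero => norm_num
  | succ f ih =>
    have : 3 ^ (f + 1 + 2) = 3 * 3 ^ (f + 2) := by ring
    omega

theorem five_pow_ge : ∀ f : ℕ, 5 * (f + 1) ≤ 5 ^ (f + 1) := by
  intro f
  induction f with
  | zero => norm_num
  | succ f ih =>
    have : 5 ^ (f + 1 + 1) = 5 * 5 ^ (f + 1) := by ring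
    omega

theorem two_mul_le_pow : ∀ f : ℕ, 2 * (f + 3) ≤ 2 ^ (f + 3) := by
  intro f
  have := two_pow_ge f
  omega

variable {p f ν : ℕ}

theorem f_three (h5 : 5 ≤ 2 ^ f) : 3 ≤ f := by
  by_contra h
  have : f ≤ 2 := by omega
  have : 2 ^ f ≤ 2 ^ 2 := Nat.pow_le_pow_right (by norm_num) this
  omega

theorem f_two (h5 : 5 ≤ 3 ^ f) : 2 ≤ f := by
  by_contra h
  have : f ≤ 1 := by omega
  have : 3 ^ f ≤ 3 ^ 1 := Nat.pow_le_pow_right (by norm_num) this
  omega

/-- the bound of `p ^ ν` -/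
theorem nu_two (hf : 1 ≤ f) (hν : 2 ^ ν ∣ Nat.gcd 2 2 * f) : 2 ^ ν ≤ 2 * f := by
  have h1 : Nat.gcd 2 2 = 2 := by decide
  rw [h1] at hν
  exact Nat.le_of_dvd (by omega) hν

theorem nu_odd (hp : p.Prime) (hp2 : p ≠ 2) (hf : 1 ≤ f) (hν : p ^ ν ∣ Nat.gcd 2 p * f) : p ^ ν ≤ f := by
  have h1 : Nat.gcd 2 p = 1 := by
    rw [← Nat.coprime_iff_gcd_eq_one, Nat.coprime_primes Nat.prime_two hp]
    omega
  rw [h1, one_mul] at hν
  exact Nat.le_of_dvd (by omega) hν

theorem nu_lt (hp : p.Prime) (h : p ^ ν ≤ f) (hf : 1 ≤ f) : ν < f := by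
  have h1 : f < p ^ f := Nat.lt_pow_self hp.one_lt
  exact (Nat.pow_lt_pow_iff_right hp.one_lt).1 (h.trans_lt h1)

theorem five_le (hp : p.Prime) (hp2 : p ≠ 2) (hp3 : p ≠ 3) : 5 ≤ p := by
  have h1 := hp.two_le
  have h2 : p ≠ 4 := by rintro rfl; exact absurd hp (by norm_num)
  omega

/-- a power bounded by the `l`-part of `|F₄(q)|` is small -/
theorem sm_of_pow (hp : p.Prime) (hf : 1 ≤ f) (h5 : 5 ≤ p ^ f) (hν : p ^ ν ∣ Nat.gcd 2 p * f) {v : ℕ}
    (h : p = 2 → p ^ v ≤ 9 * (p ^ f + 1) ^ 4 + 1) (h' : p ^ v ≤ 128 * (p ^ f + 1) ^ 4 + 1) :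
    v + sl p + ν < 8 * f := by
  have hC : ∀ k, k ≤ (p ^ f) ^ 3 → k * (p ^ f) ^ 4 ≤ (p ^ f) ^ 7 := by
    intro k hk
    calc k * (p ^ f) ^ 4 ≤ (p ^ f) ^ 3 * (p ^ f) ^ 4 := Nat.mul_le_mul_right _ hk
      _ = _ := by ring
  have h8 : (p ^ f) ^ 8 = p ^ (8 * f) := by rw [← pow_mul, mul_comm]
  have hB : 5 ^ 4 ≤ (p ^ f) ^ 4 := Nat.pow_le_pow_left h5 4
  by_cases hp2 : p = 2
  · subst hp2
    have h3 := f_three h5
    have hq8 : 2 ^ 3 ≤ 2 ^ f := Nat.pow_le_pow_right (by norm_num) h3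
    obtain ⟨k, rfl⟩ := Nat.exists_eq_add_of_le' h3
    have h6 := two_pow_ge k
    have h7 := nu_two hf hν
    have h9 := h rfl
    set q := 2 ^ (k + 3) with hq
    have hA : 4096 * (q + 1) ^ 4 ≤ 6561 * q ^ 4 := by
      have h10 : 8 * (q + 1) ≤ 9 * q := by omega
      have h11 := Nat.pow_le_pow_left h10 4
      rw [mul_pow, mul_pow] at h11
      norm_num at h11
      exact h11
    have hC' := hC 512 (by
      have := Nat.pow_le_pow_left hq8 3
      norm_num at this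
      exact this)
    have hB' : 4096 ≤ q ^ 4 := by
      have := Nat.pow_le_pow_left hq8 4
      norm_num at this
      exact this
    have h12 : 2 ^ (v + sl 2 + ν) < 2 ^ (8 * (k + 3)) := by
      rw [← h8, pow_add, pow_add]
      have e1 : (2 : ℕ) ^ sl 2 = 32 := by decide
      rw [e1]
      calc 2 ^ v * 32 * 2 ^ ν ≤ (9 * (q + 1) ^ 4 + 1) * 32 * (2 * (k + 3)) :=
            Nat.mul_le_mul (Nat.mul_le_mul_right _ h9) h7
        _ = (9 * (q + 1) ^ 4 + 1) * (8 * (8 * (k + 3))) := by ring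
        _ ≤ (9 * (q + 1) ^ 4 + 1) * (8 * (3 * q)) := Nat.mul_le_mul_left _ (Nat.mul_le_mul_left _ h6)
        _ = q * (24 * (9 * (q + 1) ^ 4 + 1)) := by ring
        _ < q * q ^ 7 := Nat.mul_lt_mul_of_pos_left (by omega) (by omega)
        _ = q ^ 8 := by ring
    exact (Nat.pow_lt_pow_iff_right (by norm_num)).1 h12
  have h7 := nu_odd hp hp2 hf hν
  by_cases hp3 : p = 3
  · subst hp3
    have h3 := f_two h5
    have hq8 : 3 ^ 2 ≤ 3 ^ f := Nat.pow_le_pow_right (by norm_num) h3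
    obtain ⟨k, rfl⟩ := Nat.exists_eq_add_of_le' h3
    have h6 := three_pow_ge k
    set q := 3 ^ (k + 2) with hq
    have hA : 6561 * (q + 1) ^ 4 ≤ 10000 * q ^ 4 := by
      have h10 : 9 * (q + 1) ≤ 10 * q := by omega
      have h11 := Nat.pow_le_pow_left h10 4
      rw [mul_pow, mul_pow] at h11
      norm_num at h11
      exact h11
    have hC' := hC 729 (by
      have := Nat.pow_le_pow_left hq8 3
      norm_num at this
      exact this)
    have h12 : 3 * 3 ^ (v + sl 3 + ν) < 3 * 3 ^ (8 * (k + 2)) := by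
      rw [← h8, pow_add, pow_add]
      have e1 : (3 : ℕ) ^ sl 3 = 3 := by decide
      rw [e1]
      calc 3 * (3 ^ v * 3 * 3 ^ ν) ≤ 3 * ((128 * (q + 1) ^ 4 + 1) * 3 * (k + 2)) :=
            Nat.mul_le_mul_left _ (Nat.mul_le_mul (Nat.mul_le_mul_right _ h') h7)
        _ = (128 * (q + 1) ^ 4 + 1) * (9 * (k + 2)) := by ring
        _ ≤ (128 * (q + 1) ^ 4 + 1) * (2 * q) := Nat.mul_le_mul_left _ h6
        _ = q * (2 * (128 * (q + 1) ^ 4 + 1)) := by ring
        _ < q * (3 * q ^ 7) := Nat.mul_lt_mul_of_pos_left (by omega) (by omega)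
        _ = 3 * q ^ 8 := by ring
    exact (Nat.pow_lt_pow_iff_right (by norm_num)).1 (Nat.lt_of_mul_lt_mul_left h12)
  · have hp5 := five_le hp hp2 hp3
    obtain ⟨k, rfl⟩ := Nat.exists_eq_add_of_le' hf
    have h6 : 5 * (k + 1) ≤ p ^ (k + 1) := (five_pow_ge k).trans (Nat.pow_le_pow_left hp5 _)
    set q := p ^ (k + 1) with hq
    have hA : 625 * (q + 1) ^ 4 ≤ 1296 * q ^ 4 := by
      have h10 : 5 * (q + 1) ≤ 6 * q := by omega
      have h11 := Nat.pow_le_pow_left h10 4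
      rw [mul_pow, mul_pow] at h11
      norm_num at h11
      exact h11
    have hC' := hC 125 (by
      have := Nat.pow_le_pow_left h5 3
      norm_num at this
      exact this)
    have h12 : 5 * p ^ (v + sl p + ν) < 5 * p ^ (8 * (k + 1)) := by
      rw [← h8, pow_add, pow_add]
      have e1 : p ^ sl p = 1 := by unfold sl; rw [if_neg hp2, if_neg hp3, pow_zero]
      rw [e1]
      calc 5 * (p ^ v * 1 * p ^ ν) ≤ 5 * ((128 * (q + 1) ^ 4 + 1) * 1 * (k + 1)) :=
            Nat.mul_le_mul_left _ (Nat.mul_le_mul (Nat.mul_le_mul_right _ h') h7)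
        _ = (128 * (q + 1) ^ 4 + 1) * (5 * (k + 1)) := by ring
        _ ≤ (128 * (q + 1) ^ 4 + 1) * q := Nat.mul_le_mul_left _ h6
        _ = q * (128 * (q + 1) ^ 4 + 1) := by ring
        _ < q * (5 * q ^ 7) := Nat.mul_lt_mul_of_pos_left (by omega) (by omega)
        _ = 5 * q ^ 8 := by ring
    exact (Nat.pow_lt_pow_iff_right hp.one_lt).1 (Nat.lt_of_mul_lt_mul_left h12)

/-- small exponents are small -/
theorem sm_of_le (hp : p.Prime) (hf : 1 ≤ f) (h5 : 5 ≤ p ^ f) (hν : p ^ ν ∣ Nat.gcd 2 p * f) {v : ℕ}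
    (h : v ≤ 12) (h' : 5 ≤ p → v ≤ 6) : v + sl p + ν < 8 * f := by
  by_cases hp2 : p = 2
  · subst hp2
    have h3 := f_three h5
    have h7 := nu_two hf hν
    obtain ⟨k, rfl⟩ := Nat.exists_eq_add_of_le' h3
    have h8 : ν ≤ k + 3 := (Nat.pow_le_pow_iff_right (by norm_num)).1 (h7.trans (two_mul_le_pow k))
    have e1 : sl 2 = 5 := by decide
    omega
  have h7 := nu_lt hp (nu_odd hp hp2 hf hν) hf
  by_cases hp3 : p = 3
  · subst hp3
    have h3 := f_two h5
    have e1 : sl 3 = 1 := by decide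
    omega
  · have h9 := h' (five_le hp hp2 hp3)
    have e1 : sl p = 0 := by unfold sl; rw [if_neg hp2, if_neg hp3]
    omega

end Cfsg.Agent.H946.RgF4
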