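import Mathlib
import Cfsg.Agent.H902.Facts
import Cfsg.Agent.H902.Cross

/-!
# S3691, row `F₄(q)`: the `t`-part of the order of `F₄(q)` for `t` prime to `q` (helper946)

`P_odd_le` : at most `9 (q + 1) ^ 4` for `t ≠ 2`;  `P_two_le` : at most `128 (q + 1) ^ 4` for `t = 2`.
-/

set_option autoImplicit false

namespace Cfsg.Agent.H946.RgF4

open Cfsg.Agent.H902 Cfsg.Agent.H902.Art

/-- the order of `F₄(q)` without the factor `q ^ 24` -/
def nF (q : ℕ) : ℕ := (q ^ 2 - 1) * (q ^ 6 - 1) * (q ^ 8 - 1) * (q ^ 12 - 1)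

theorem nF_eq {q a : ℕ} (h : q ^ 2 = a + 1) :
    nF q = a ^ 4 * (a ^ 2 + 3 * a + 3) ^ 2 * (a + 2) ^ 2 * (a ^ 2 + 2 * a + 2) * (a ^ 2 + a + 1) := by
  have h6 : q ^ 6 - 1 = a * (a ^ 2 + 3 * a + 3) := by
    have : q ^ 6 = (q ^ 2) ^ 3 := by ring
    rw [this, h]
    have : (a + 1) ^ 3 = a * (a ^ 2 + 3 * a + 3) + 1 := by ring
    omega
  have h8 : q ^ 8 - 1 = a * (a + 2) * (a ^ 2 + 2 * a + 2) := by
    have : q ^ 8 = (q ^ 2) ^ 4 := by ring
    rw [this, h]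
    have : (a + 1) ^ 4 = a * (a + 2) * (a ^ 2 + 2 * a + 2) + 1 := by ring
    omega
  have h12 : q ^ 12 - 1 = a * (a ^ 2 + 3 * a + 3) * (a + 2) * (a ^ 2 + a + 1) := by
    have : q ^ 12 = (q ^ 2) ^ 6 := by ring
    rw [this, h]
    have : (a + 1) ^ 6 = a * (a ^ 2 + 3 * a + 3) * (a + 2) * (a ^ 2 + a + 1) + 1 := by ring
    omega
  have h2 : q ^ 2 - 1 = a := by omega
  unfold nF
  rw [h2, h6, h8, h12]
  ring

theorem P_sq {t a : ℕ} (ha : a ≠ 0) : P t (a ^ 2) = P t a ^ 2 := by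
  rw [sq, P_mul ha ha, sq]

theorem P_four {t a : ℕ} (ha : a ≠ 0) : P t (a ^ 4) = P t a ^ 4 := by
  rw [show a ^ 4 = (a ^ 2) ^ 2 by ring, P_sq (pow_ne_zero _ ha), P_sq ha]
  ring

theorem P_nF {q a t : ℕ} (h : q ^ 2 = a + 1) (ha : a ≠ 0) :
    P t (nF q) = P t a ^ 4 * P t (a ^ 2 + 3 * a + 3) ^ 2 * P t (a + 2) ^ 2 * P t (a ^ 2 + 2 * a + 2) *
      P t (a ^ 2 + a + 1) := by
  rw [nF_eq h, P_mul (by positivity) (by positivity), P_mul (by positivity) (by positivity),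
    P_mul (by positivity) (by positivity), P_mul (by positivity) (by positivity), P_four ha, P_sq (by positivity),
    P_sq (by positivity)]

theorem P_two_le {q : ℕ} (hq : 3 ≤ q) (hodd : ¬ 2 ∣ q) : P 2 (nF q) ≤ 128 * (q + 1) ^ 4 := by
  have ho : Odd q := by
    rw [← Nat.not_even_iff_odd, even_iff_two_dvd]; exact hodd
  obtain ⟨a, ha⟩ := Nat.exists_eq_add_of_le' (show 1 ≤ q ^ 2 from Nat.one_le_pow _ _ (by omega))
  have h9 : 3 ^ 2 ≤ q ^ 2 := Nat.pow_le_pow_left hq 2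
  have ha0 : a ≠ 0 := by omega
  have h4 : 4 ∣ a := by
    obtain ⟨k, hk⟩ := ho
    have h1 : q ^ 2 = 4 * (k * k + k) + 1 := by rw [hk]; ring
    exact ⟨k * k + k, by omega⟩
  obtain ⟨b, rfl⟩ := h4
  rw [P_nF ha ha0]
  have e1 : P 2 ((4 * b) ^ 2 + 3 * (4 * b) + 3) = 1 :=
    P_two_of_odd ⟨8 * b ^ 2 + 6 * b + 1, by ring⟩
  have e2 : P 2 (4 * b + 2) = 2 := by
    rw [show 4 * b + 2 = 2 * (2 * b + 1) by ring]
    exact P_two_two_mul ⟨b, rfl⟩
  have e3 : P 2 ((4 * b) ^ 2 + 2 * (4 * b) + 2) = 2 := by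
    rw [show (4 * b) ^ 2 + 2 * (4 * b) + 2 = 2 * (2 * (4 * b ^ 2 + 2 * b) + 1) by ring]
    exact P_two_two_mul ⟨_, rfl⟩
  have e4 : P 2 ((4 * b) ^ 2 + 4 * b + 1) = 1 :=
    P_two_of_odd ⟨8 * b ^ 2 + 2 * b, by ring⟩
  rw [e1, e2, e3, e4]
  have h1 := P_two_sq_sub_one_le hq ho
  rw [show q ^ 2 - 1 = 4 * b by omega] at h1
  have h2 := Nat.pow_le_pow_left h1 4
  rw [mul_pow] at h2
  omega

theorem P_odd_le {q t : ℕ} (ht : t.Prime) (ht2 : t ≠ 2) (hq : 2 ≤ q) (htq : ¬ t ∣ q) :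
    P t (nF q) ≤ 9 * (q + 1) ^ 4 := by
  have ht3 : 3 ≤ t := by have := ht.two_le; omega
  obtain ⟨a, ha⟩ := Nat.exists_eq_add_of_le' (show 1 ≤ q ^ 2 from Nat.one_le_pow _ _ (by omega))
  have h9 : 2 ^ 2 ≤ q ^ 2 := Nat.pow_le_pow_left hq 2
  have ha0 : a ≠ 0 := by omega
  have hn2 : ¬ t ∣ 2 := fun h => by have := Nat.le_of_dvd (by norm_num) h; omega
  have hq2 : ¬ t ∣ a + 1 := by
    rw [← ha]
    exact fun h => htq (ht.dvd_of_dvd_pow h)
  rw [P_nF ha ha0]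
  by_cases hta : t ∣ a
  · have e2 : P t (a + 2) = 1 := P_eq_one fun h => hn2 ((Nat.dvd_add_right hta).1 h)
    have e3 : P t (a ^ 2 + 2 * a + 2) = 1 := P_eq_one fun h => hn2 ((Nat.dvd_add_right
      (dvd_add (dvd_pow hta (by norm_num)) (hta.mul_left 2))).1 h)
    have e4 : P t (a ^ 2 + a + 1) = 1 := P_eq_one fun h => ht.one_lt.ne' (Nat.dvd_one.1 ((Nat.dvd_add_right
      (dvd_add (dvd_pow hta (by norm_num)) hta)).1 h))
    have e1 : P t (a ^ 2 + 3 * a + 3) ≤ 3 := by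
      by_cases h3 : t = 3
      · subst h3
        obtain ⟨k, rfl⟩ := hta
        have : (3 * k) ^ 2 + 3 * (3 * k) + 3 = 3 ^ 1 * (3 * (k ^ 2 + k) + 1) := by ring
        rw [this, P_pow_self ht (by omega)]
        norm_num
      · rw [P_eq_one]
        · norm_num
        · intro h
          have h4 := (Nat.dvd_add_right (dvd_add (dvd_pow hta (by norm_num)) (hta.mul_left 3))).1 h
          exact h3 ((Nat.prime_dvd_prime_iff_eq ht Nat.prime_three).1 h4)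
    rw [e2, e3, e4]
    have h1 := P_sq_sub_one_le ht ht2 hq (j := 1) le_rfl
    rw [show 2 * 1 = 2 by norm_num, pow_one, show q ^ 2 - 1 = a by omega] at h1
    have h2 := Nat.pow_le_pow_left h1 4
    have h3 := Nat.pow_le_pow_left e1 2
    have h4 := Nat.mul_le_mul h2 h3
    omega
  · have e0 : P t a = 1 := P_eq_one hta
    have hn3 : ¬ t ∣ 3 := by
      intro h
      have h3 := (Nat.prime_dvd_prime_iff_eq ht Nat.prime_three).1 h
      subst h3
      have h4 : q ^ 2 % 3 = 1 := by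
        have h5 : q % 3 = 1 ∨ q % 3 = 2 := by omega
        rcases h5 with h5 | h5 <;> simp [Nat.pow_mod, h5]
      omega
    have hone : ¬ t ∣ 1 := fun h => ht.one_lt.ne' (Nat.dvd_one.1 h)
    -- the pairs
    have BC : t ∣ a ^ 2 + 3 * a + 3 → ¬ t ∣ a + 2 := fun h1 h2 => hone ((Nat.dvd_add_right (h2.mul_left (a + 1))).1 (by
      rw [show (a + 1) * (a + 2) + 1 = a ^ 2 + 3 * a + 3 by ring]; exact h1))
    have BD : t ∣ a ^ 2 + 3 * a + 3 → ¬ t ∣ a ^ 2 + 2 * a + 2 := fun h1 h2 => hq2 ((Nat.dvd_add_right h2).1 (by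
      rw [show a ^ 2 + 2 * a + 2 + (a + 1) = a ^ 2 + 3 * a + 3 by ring]; exact h1))
    have BE : t ∣ a ^ 2 + 3 * a + 3 → ¬ t ∣ a ^ 2 + a + 1 := fun h1 h2 => by
      have h3 : t ∣ 2 * (a + 1) := (Nat.dvd_add_right h2).1 (by
        rw [show a ^ 2 + a + 1 + 2 * (a + 1) = a ^ 2 + 3 * a + 3 by ring]; exact h1)
      rcases ht.dvd_mul.1 h3 with h | h
      · exact hn2 h
      · exact hq2 h
    have CD : t ∣ a + 2 → ¬ t ∣ a ^ 2 + 2 * a + 2 := fun h1 h2 => hn2 ((Nat.dvd_add_right (h1.mul_left a)).1 (by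
      rw [show a * (a + 2) + 2 = a ^ 2 + 2 * a + 2 by ring]; exact h2))
    have CE : t ∣ a + 2 → ¬ t ∣ a ^ 2 + a + 1 := fun h1 h2 => hn3 ((Nat.dvd_add_right (h1.mul_left a)).1 (by
      rw [show a * (a + 2) + 3 = a ^ 2 + a + 1 + (a + 2) by ring]; exact dvd_add h2 h1))
    have DE : t ∣ a ^ 2 + 2 * a + 2 → ¬ t ∣ a ^ 2 + a + 1 := fun h1 h2 => hq2 ((Nat.dvd_add_right h2).1 (by
      rw [show a ^ 2 + a + 1 + (a + 1) = a ^ 2 + 2 * a + 2 by ring]; exact h1))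
    rw [e0]
    by_cases hB : t ∣ a ^ 2 + 3 * a + 3
    · rw [P_eq_one (BC hB), P_eq_one (BD hB), P_eq_one (BE hB)]
      have hB2 : a ^ 2 + 3 * a + 3 = (q ^ 2 + q + 1) * (q ^ 2 - q + 1) := by
        have h1 : q ≤ q ^ 2 := Nat.le_self_pow (by norm_num) q
        zify [h1]
        have h2 : (a : ℤ) = (q : ℤ) ^ 2 - 1 := by
          have : (q : ℤ) ^ 2 = (a : ℤ) + 1 := by exact_mod_cast ha
          linarith
        rw [h2]; ring
      have hP : P t (a ^ 2 + 3 * a + 3) ≤ q ^ 2 + q + 1 := by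
        rw [hB2, P_mul (by positivity) (by positivity)]
        have h1 : q ≤ q ^ 2 := Nat.le_self_pow (by norm_num) q
        by_cases h2 : t ∣ q ^ 2 - q + 1
        · have h3 : ¬ t ∣ q ^ 2 + q + 1 := fun h3 => by
            have h4 : t ∣ 2 * q := (Nat.dvd_add_right h2).1 (by
              rw [show q ^ 2 - q + 1 + 2 * q = q ^ 2 + q + 1 by omega]; exact h3)
            rcases ht.dvd_mul.1 h4 with h | h
            · exact hn2 h
            · exact htq h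
          rw [P_eq_one h3, one_mul]
          exact (P_le (by positivity)).trans (by omega)
        · rw [P_eq_one h2, mul_one]
          exact P_le (by positivity)
      have h1 := Nat.pow_le_pow_left hP 2
      have h2 : (q ^ 2 + q + 1) ^ 2 ≤ (q + 1) ^ 4 := by
        rw [show (q + 1) ^ 4 = ((q + 1) ^ 2) ^ 2 by ring]
        exact Nat.pow_le_pow_left (by nlinarith) 2
      omega
    by_cases hC : t ∣ a + 2
    · rw [P_eq_one hB, P_eq_one (CD hC), P_eq_one (CE hC)]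
      have h1 := Nat.pow_le_pow_left (P_le (r := t) (a := a + 2) (by omega)) 2
      have h2 : (a + 2) ^ 2 ≤ (q + 1) ^ 4 := by
        rw [show (q + 1) ^ 4 = ((q + 1) ^ 2) ^ 2 by ring]
        exact Nat.pow_le_pow_left (by nlinarith) 2
      omega
    rw [P_eq_one hB, P_eq_one hC]
    by_cases hD : t ∣ a ^ 2 + 2 * a + 2
    · rw [P_eq_one (DE hD)]
      have h1 := P_le (r := t) (a := a ^ 2 + 2 * a + 2) (by omega)
      have h2 : (a + 2) ^ 2 ≤ (q + 1) ^ 4 := by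
        rw [show (q + 1) ^ 4 = ((q + 1) ^ 2) ^ 2 by ring]
        exact Nat.pow_le_pow_left (by nlinarith) 2
      nlinarith
    · rw [P_eq_one hD]
      have h1 := P_le (r := t) (a := a ^ 2 + a + 1) (by omega)
      have h2 : (a + 2) ^ 2 ≤ (q + 1) ^ 4 := by
        rw [show (q + 1) ^ 4 = ((q + 1) ^ 2) ^ 2 by ring]
        exact Nat.pow_le_pow_left (by nlinarith) 2
      nlinarith

end Cfsg.Agent.H946.RgF4
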