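import Cfsg.Agent.H946.RgF4.Cross
import Cfsg.Agent.H946.RgF4.Lte

/-!
# S3691, row `F₄(q)`: sections in other characteristics have a small `p`-part, the theorem (helper946)
-/

set_option autoImplicit false
set_option exponentiation.threshold 700

namespace Cfsg.Agent.H946.RgF4

open Cfsg Cfsg.Agent.OrdDiv Cfsg.Agent.H436 Cfsg.Agent.H915.GN Cfsg.Agent.H264.GN Cfsg.Agent.H264.FKS
open Cfsg.Agent.H902 Cfsg.Agent.H902.Names Cfsg.Agent.H56.Exc
open Cfsg.Agent.H325.Same (name_cases pow_le_real pow_le_L2)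

variable {p f ν : ℕ}

/-! ### Lie type -/

/-- **Artin's dominance**, `p ≥ 5` -/
theorem pow_le_real5 {X : Art.Sh} {l a M p k : ℕ} (h : Art.Real X l a M) (hp : p.Prime) (hpl : l ≠ p) (h5 : 5 ≤ p)
    (hk : 3 ≤ k) (hd : p ^ k ∣ M) : p ^ k ≤ Art.P l M + 1 := by
  have hM := h.M_ne
  by_cases hX : X = .L 2
  · subst hX
    have h1 := pow_le_L2 h hp hpl hk hd
    rw [h.P_self]
    have : Art.NN (.L 2) = 1 := rfl
    rw [this, pow_one]
    exact h1
  · rw [h.P_self]
    refine (H325.Same.le_P hp hM hd).trans ((h.dom hX hp (Ne.symm hpl) ?_ ?_).trans (Nat.le_succ _))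
    · rintro ⟨-, -, h3⟩
      omega
    · rintro ⟨-, -, h3⟩
      omega

theorem num_f4 (q : ℕ) : num (.f4 q) = q ^ 24 * nF q := rfl

theorem P_num_f4 {t q : ℕ} (ht : t.Prime) (hq : 2 ≤ q) (htq : ¬ t ∣ q) : Art.P t (num (.f4 q)) = Art.P t (nF q) := by
  have h1 : nF q ≠ 0 := by
    have h2 : 0 < q ^ 2 - 1 := by have := Nat.pow_le_pow_left hq 2; omega
    have h6 : 0 < q ^ 6 - 1 := by have := Nat.pow_le_pow_left hq 6; omega
    have h8 : 0 < q ^ 8 - 1 := by have := Nat.pow_le_pow_left hq 8; omega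
    have h12 : 0 < q ^ 12 - 1 := by have := Nat.pow_le_pow_left hq 12; omega
    unfold nF
    positivity
  rw [num_f4, Art.P_mul (pow_ne_zero _ (by omega)) h1, Art.P_eq_one, one_mul]
  exact fun h => htq (ht.dvd_of_dvd_pow h)

theorem lie_small {X : Art.Sh} {l a M : ℕ} (hR : Art.Real X l a M) (hp : p.Prime) (hl : l ≠ p) (hf : 1 ≤ f)
    (h5 : 5 ≤ p ^ f) (hν : p ^ ν ∣ Nat.gcd 2 p * f) (hd : M ∣ num (.f4 (p ^ f))) :
    M.factorization p + sl p + ν < 8 * f := by
  have hM := hR.M_ne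
  have hpd : p ^ M.factorization p ∣ M := Nat.ordProj_dvd M p
  have hlp : ¬ l ∣ p ^ f := fun h => hl ((Nat.prime_dvd_prime_iff_eq hR.hp hp).1 (hR.hp.dvd_of_dvd_pow h))
  have hN : num (.f4 (p ^ f)) ≠ 0 := by
    rw [num_f4]
    have h2 : 0 < (p ^ f) ^ 2 - 1 := by have := Nat.pow_le_pow_left h5 2; omega
    have h6 : 0 < (p ^ f) ^ 6 - 1 := by have := Nat.pow_le_pow_left h5 6; omega
    have h8 : 0 < (p ^ f) ^ 8 - 1 := by have := Nat.pow_le_pow_left h5 8; omega
    have h12 : 0 < (p ^ f) ^ 12 - 1 := by have := Nat.pow_le_pow_left h5 12; omega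
    unfold nF
    have h24 : 0 < (p ^ f) ^ 24 := pow_pos (by omega) _
    positivity
  have hP : Art.P l M ≤ Art.P l (nF (p ^ f)) := by
    rw [← P_num_f4 hR.hp (by omega) hlp]
    exact Art.P_mono hR.hp hN hd
  by_cases hsm : M.factorization p ≤ 12 ∧ (5 ≤ p → M.factorization p ≤ 6)
  · exact sm_of_le hp hf h5 hν hsm.1 hsm.2
  have hpow : p ^ M.factorization p ≤ Art.P l M + 1 := by
    by_cases h12 : M.factorization p ≤ 12
    · have h6 : 5 ≤ p ∧ 6 < M.factorization p := by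
        by_contra hcon
        exact hsm ⟨h12, fun h => by by_contra h7; exact hcon ⟨h, by omega⟩⟩
      exact pow_le_real5 hR hp hl h6.1 (by omega) hpd
    · exact pow_le_real hR hp hl (by omega) hpd
  refine sm_of_pow hp hf h5 hν (fun hp2 => ?_) ?_
  · have h2 : l ≠ 2 := by rintro rfl; exact hl hp2.symm
    have := P_odd_le hR.hp h2 (by omega) hlp
    omega
  · by_cases h2 : l = 2
    · subst h2
      have := P_two_le (by omega) hlp
      omega
    · have := P_odd_le hR.hp h2 (by omega) hlp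
      omega

/-! ### sporadic groups -/

theorem chk2 : ∀ f ∈ [3, 4, 5, 6], ∀ x ∈ spor, x.2 ∣ num (.f4 (2 ^ f)) → ¬ 2 ^ 18 ∣ x.2 := by decide +kernel

theorem chk3 : ∀ x ∈ spor, x.2 ∣ num (.f4 (3 ^ 2)) → ¬ 3 ^ 15 ∣ x.2 := by decide +kernel

theorem chk5 : ∀ x ∈ spor, x.2 ∣ num (.f4 (5 ^ 1)) → ¬ 5 ^ 8 ∣ x.2 := by decide +kernel

theorem s47 : ∀ x ∈ spor, ¬ 2 ^ 47 ∣ x.2 := by decide +kernel
theorem s21 : ∀ x ∈ spor, ¬ 3 ^ 21 ∣ x.2 := by decide +kernel

theorem key_eight : ∀ a < 90, ∀ b < 72, 7 ≤ 72 * a + b → ¬ (72 * a + b) ^ 8 ∣ 7 ^ 6 * 11 ^ 3 * 13 ^ 3 *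
    (17 * 19 * 23 * 29 * 31 * 37 * 41 * 43 * 47 * 59 * 67 * 71) := by
  decide +kernel

theorem le_eight : 7 ^ 6 * 11 ^ 3 * 13 ^ 3 * (17 * 19 * 23 * 29 * 31 * 37 * 41 * 43 * 47 * 59 * 67 * 71) ≤ 6479 ^ 8 := by
  decide +kernel

theorem spor_eight {p : ℕ} (hp : p.Prime) (h7 : 7 ≤ p) : ∀ x ∈ spor, ¬ p ^ 8 ∣ x.2 := by
  intro x hx h
  have h1 := h.trans (H363.DQ.spor_part x hx)
  have h2 : Nat.Coprime (p ^ 8) (2 ^ 46 * 3 ^ 20) := by
    apply Nat.Coprime.pow_left
    apply Nat.Coprime.mul_right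
    · exact Nat.Coprime.pow_right _ ((Nat.coprime_primes hp Nat.prime_two).2 (by omega))
    · exact Nat.Coprime.pow_right _ ((Nat.coprime_primes hp Nat.prime_three).2 (by omega))
  have h3 : Nat.Coprime (p ^ 8) (5 ^ 9) :=
    Nat.Coprime.pow _ _ ((Nat.coprime_primes hp Nat.prime_five).2 (by omega))
  have h4 := h2.dvd_of_dvd_mul_left h1
  have h5 : p ^ 8 ∣ 5 ^ 9 * (7 ^ 6 * 11 ^ 3 * 13 ^ 3 *
      (17 * 19 * 23 * 29 * 31 * 37 * 41 * 43 * 47 * 59 * 67 * 71)) := by
    refine h4.trans (dvd_of_eq (by norm_num))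
  have h6 := h3.dvd_of_dvd_mul_left h5
  have h5' : p ^ 8 ≤ 6479 ^ 8 := (Nat.le_of_dvd (by positivity) h6).trans le_eight
  have h8 : p ≤ 6479 := (Nat.pow_le_pow_iff_left (by norm_num)).1 h5'
  have h9 := key_eight (p / 72) (by omega) (p % 72) (by omega)
  rw [Nat.div_add_mod] at h9
  exact h9 h7 h6

theorem fac_le {p M k : ℕ} (h : ¬ p ^ (k + 1) ∣ M) : M.factorization p ≤ k := by
  by_contra hcon
  exact h ((pow_dvd_pow p (by omega)).trans (Nat.ordProj_dvd M p))

theorem spor_small {x : Grp × ℕ} (hx : x ∈ spor) (hp : p.Prime) (hf : 1 ≤ f)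
    (h5 : 5 ≤ p ^ f) (hν : p ^ ν ∣ Nat.gcd 2 p * f) (hd : x.2 ∣ num (.f4 (p ^ f))) :
    x.2.factorization p + sl p + ν < 8 * f := by
  by_cases hp2 : p = 2
  · subst hp2
    have h3 := f_three h5
    have e1 : sl 2 = 5 := by decide
    rw [e1]
    have h46 := fac_le (k := 46) (s47 x hx)
    by_cases h6 : f ≤ 6
    · have h17 := fac_le (k := 17) (chk2 f (by
        simp only [List.mem_cons, List.not_mem_nil, or_false]; omega) x hx hd)
      have hg : Nat.gcd 2 2 = 2 := by decide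
      rw [hg] at hν
      have hν' : ν ≤ 3 ∧ (f = 3 → ν ≤ 1) := by
        have h8 := Nat.le_of_dvd (by omega) hν
        refine ⟨?_, ?_⟩
        · by_contra hcon
          have : 2 ^ 4 ≤ 2 ^ ν := Nat.pow_le_pow_right (by norm_num) (by omega)
          omega
        · rintro rfl
          by_contra hcon
          have h9 : 2 ^ 2 ∣ 2 * 3 := (pow_dvd_pow 2 (by omega)).trans hν
          revert h9
          decide
      have := hν'.1
      by_cases h33 : f = 3
      · have := hν'.2 h33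
        omega
      · omega
    · have h7 := nu_two hf hν
      by_cases h77 : f = 7
      · have hν' : ν ≤ 3 := by
          by_contra hcon
          have : 2 ^ 4 ≤ 2 ^ ν := Nat.pow_le_pow_right (by norm_num) (by omega)
          omega
        omega
      · obtain ⟨k, rfl⟩ := Nat.exists_eq_add_of_le' h3
        have h8 : ν ≤ k + 3 := (Nat.pow_le_pow_iff_right (by norm_num)).1 (h7.trans (two_mul_le_pow k))
        omega
  have h7 := nu_lt hp (nu_odd hp hp2 hf hν) hf
  by_cases hp3 : p = 3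
  · subst hp3
    have h3 := f_two h5
    have e1 : sl 3 = 1 := by decide
    rw [e1]
    by_cases h2 : f = 2
    · subst h2
      have h14 := fac_le (k := 14) (chk3 x hx hd)
      have hν0 : ν = 0 := by
        by_contra hcon
        have h9 := nu_odd hp hp2 hf hν
        have h10 : 3 ^ 1 ≤ 3 ^ ν := Nat.pow_le_pow_right (by norm_num) (by omega)
        omega
      omega
    · have h20 := fac_le (k := 20) (s21 x hx)
      omega
  · have hp5 := five_le hp hp2 hp3
    have e1 : sl p = 0 := by unfold sl; rw [if_neg hp2, if_neg hp3]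
    rw [e1]
    by_cases h1 : f = 1
    · subst h1
      by_cases hp7 : p = 5
      · subst hp7
        have := fac_le (k := 7) (chk5 x hx hd)
        omega
      · have h6 : p ≠ 6 := by rintro rfl; exact absurd hp (by norm_num)
        have := fac_le (k := 7) (spor_eight hp (by omega) x hx)
        omega
    · have := fac_le (k := 9) (H363.DQ.spor_ten hp hp5 x hx)
      omega

/-! ### alternating groups -/

theorem chkA : ∀ p < 29, 5 ≤ p → p % 2 ≠ 0 → p % 3 ≠ 0 → ¬ p ^ 7 ∣ Nat.factorial 28 := by decide +kernel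

theorem chkA3 : ¬ 3 ^ 14 ∣ Nat.factorial 28 := by decide +kernel

theorem alt_small {S : Type*} [Group S] [Finite S] {m : ℕ} (Φ : S ≃* alternatingGroup (Fin m)) (hm : 5 ≤ m)
    (hp : p.Prime) (hf : 1 ≤ f) (h5 : 5 ≤ p ^ f) (hν : p ^ ν ∣ Nat.gcd 2 p * f) {c r N : ℕ} (hc : c = 12 ∨ c = 8)
    (hcr : c * f ∣ r - 1) (hr13 : 5 ≤ r) (hb : Big S r N c) (hrS : r ∣ Nat.card S) :
    (Nat.card S).factorization p + sl p + ν < 8 * f := by
  have h1 := alt_dvd hb hrS (by omega) Φ
  have h2 := alt_le hb hrS hr13 Φ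
  have h3 := hcr.trans h1
  have h4 : f ∣ 2 := by
    have : c * f ∣ c * 2 := by rw [mul_comm c 2]; exact h3
    exact Nat.dvd_of_mul_dvd_mul_left (by omega) this
  have h6 := Nat.le_of_dvd (by norm_num) h4
  have h7 := Nat.le_of_dvd (by omega) h1
  have hm28 : m ≤ 28 := by omega
  have hd : Nat.card S ∣ Nat.factorial 28 := by
    have h8 : 2 * Nat.card S = m.factorial := by
      have : Nontrivial (Fin m) := Fin.nontrivial_iff_two_le.2 (by omega)
      rw [Nat.card_congr Φ.toEquiv, Nat.card_eq_fintype_card, two_mul_card_alternatingGroup, Fintype.card_perm,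
        Fintype.card_fin]
    exact (Dvd.intro_left _ h8).trans (Nat.factorial_dvd_factorial hm28)
  by_cases hp2 : p = 2
  · subst hp2
    have := f_three h5
    omega
  have hν' := nu_lt hp (nu_odd hp hp2 hf hν) hf
  by_cases hp3 : p = 3
  · subst hp3
    have h9 := f_two h5
    have e1 : sl 3 = 1 := by decide
    have h13 := fac_le (k := 13) (fun h => chkA3 (h.trans hd))
    omega
  · have hp5 := five_le hp hp2 hp3
    refine sm_of_le hp hf h5 hν ?_ fun _ => ?_
    all_goals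
      have h10 : (Nat.card S).factorization p ≤ 6 := by
        by_cases h29 : p < 29
        · refine fac_le (k := 6) fun h => chkA p h29 hp5 ?_ ?_ (h.trans hd)
          · intro h11
            exact hp2 ((Nat.prime_dvd_prime_iff_eq Nat.prime_two hp).1 (Nat.dvd_of_mod_eq_zero h11)).symm
          · intro h11
            exact hp3 ((Nat.prime_dvd_prime_iff_eq Nat.prime_three hp).1 (Nat.dvd_of_mod_eq_zero h11)).symm
        · rw [Nat.factorization_eq_zero_of_not_dvd]
          · omega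
          · intro h12
            have := (hp.dvd_factorial).1 (h12.trans hd)
            omega
      omega

/-! ### the theorem -/

/-- **Sections in other characteristics have a small `p`-part.** -/
theorem cross_small {S : Type} [Group S] [Finite S] {g : Grp} (hg : IsNamed g S) (hp : p.Prime) (hf : 1 ≤ f)
    (h5 : 5 ≤ p ^ f) (hν : p ^ ν ∣ Nat.gcd 2 p * f) (hd : Nat.card S ∣ num (.f4 (p ^ f))) {c r N : ℕ}
    (hc : c = 12 ∨ c = 8) (hcr : c * f ∣ r - 1) (hr5 : 5 ≤ r) (hb : Big S r N c) (hrS : r ∣ Nat.card S) :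
    HasChar p g ∨ (Nat.card S).factorization p + sl p + ν < 8 * f := by
  have T : OrderTable.{0} := table
  rcases name_cases hg.cond with ⟨l, hl, hch⟩ | ⟨m, hm, rfl⟩ | ⟨x, hx, rfl⟩
  · by_cases hlp : l = p
    · exact Or.inl (hlp ▸ hch)
    · right
      obtain ⟨X, a, -, hR, -⟩ := exists_lie hl hg hch
      exact lie_small hR hp hlp hf h5 hν hd
  · right
    obtain ⟨Φ⟩ : Nonempty (S ≃* alternatingGroup (Fin m)) := hg.real
    exact alt_small Φ hm hp hf h5 hν hc hcr hr5 hb hrS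
  · right
    have hc' : Nat.card S = x.2 := T.spor S x hx hg.real
    rw [hc'] at hd ⊢
    exact spor_small hx hp hf h5 hν hd

end Cfsg.Agent.H946.RgF4
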