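import Cfsg.Agent.H946.RgF4.Typ

/-!
# S3691, row `F₄(q)`: the sizes of the class 8 groups of Lie type in characteristic `p` (helper946)
-/

set_option autoImplicit false

namespace Cfsg.Agent.H946.RgF4

open Cfsg Cfsg.Agent.OrdDiv Cfsg.Agent.H436 Cfsg.Agent.H425.PartP Cfsg.Agent.H425.Chr Cfsg.Agent.H946.Exc

variable {p f b c cT : ℕ} {g : Grp}

theorem glN_four {Q : ℕ} (hQ : 1 ≤ Q) : ((List.range 4).map fun i => Q ^ 4 - Q ^ i).prod =
    (Q - 1) * (Q ^ 6 * ((Q ^ 2 - 1) * (Q ^ 3 - 1) * (Q ^ 4 - 1))) := by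
  have h1 : Q ^ 4 - Q ^ 3 = Q ^ 3 * (Q - 1) := by rw [Nat.mul_sub, mul_one, ← pow_succ]
  have h2 : Q ^ 4 - Q ^ 2 = Q ^ 2 * (Q ^ 2 - 1) := by rw [Nat.mul_sub, mul_one, ← pow_add]
  have h3 : Q ^ 4 - Q ^ 1 = Q * (Q ^ 3 - 1) := by rw [Nat.mul_sub, mul_one, ← pow_succ', pow_one]
  simp only [List.range_succ, List.range_zero, List.nil_append, List.map_cons, List.map_nil,
    List.prod_cons, List.prod_nil, mul_one, List.cons_append]
  rw [h1, h2, h3, pow_zero]
  ring

/-- **class 8, without class 12** -/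
theorem type8 (H : TS p f b c cT g) (ht : top g * b = 8 * f) (hq5 : 5 ≤ p ^ f) :
    c.factorization p ≤ 8 * f ∨ (c.factorization p ≤ 12 * f ∧ (p ^ f) ^ 15 ≤ W p c) ∨
      (c.factorization p ≤ 16 * f ∧ 2 * (p ^ f) ^ 19 ≤ W p c) := by
  obtain ⟨hf, hb⟩ := H.pos
  have h2 := H.ex_le ht
  have h3 : ex g ≤ 3 * top g := by omega
  have hu := H.S.hq
  have hfac := H.S.fac
  have hp2 := H.S.hp.two_le
  rcases list_C H.S.cond H.qne h3 with ⟨n, u, hn, rfl⟩ | ⟨m, u, hm, rfl⟩ | ⟨m, u, hm, rfl⟩ | ⟨n, u, rfl⟩ |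
    ⟨m, u, hm, rfl⟩ | ⟨m, u, hm, rfl⟩ | ⟨u, rfl⟩ | ⟨u, rfl⟩ | ⟨u, rfl⟩ | ⟨u, rfl⟩ | ⟨u, rfl⟩ | ⟨u, rfl⟩ | ⟨u, rfl⟩ |
    ⟨u, rfl⟩
  · -- PSL
    have h4 : n * b = 8 * f := ht
    have hn2 : 2 ≤ n := H.S.cond.1
    rcases (show n = 2 ∨ n = 3 ∨ n = 4 ∨ n = 5 ∨ n = 6 ∨ n = 7 by omega) with rfl | rfl | rfl | rfl | rfl | rfl
    · left
      rw [hfac]; change b * 1 ≤ _; omega
    · exfalso
      obtain ⟨h, rfl, rfl⟩ : ∃ h, f = 3 * h ∧ b = 8 * h := ⟨b - 2 * f - (f - (b - 2 * f)), by omega, by omega⟩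
      have hh : 0 < h := by omega
      exact H.k1 16 8 3 2 16 hh rfl rfl (by omega) (by omega) (by decide)
        (.low (by exact id) (by norm_num) le_rfl) (by decide) (by omega)
    · right; left
      obtain rfl : b = f * 2 := by omega
      obtain rfl : u = p ^ (f * 2) := hu
      refine ⟨by rw [hfac]; change f * 2 * 6 ≤ _; omega, ?_⟩
      have h5 : Nat.gcd 4 (p ^ (f * 2) - 1) * (p ^ (f * 2) - 1) * c =
        ((List.range 4).map fun i => (p ^ (f * 2)) ^ 4 - (p ^ (f * 2)) ^ i).prod := H.S.eq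
      have h8' := H.S.two_le
      rw [glN_four (by omega), mul_comm (Nat.gcd 4 (p ^ (f * 2) - 1)), mul_assoc] at h5
      have h9 := Nat.eq_of_mul_eq_mul_left (show 0 < p ^ (f * 2) - 1 by omega) h5
      have h11 := w_eq H.S (R := ((p ^ (f * 2)) ^ 2 - 1) * ((p ^ (f * 2)) ^ 3 - 1) * ((p ^ (f * 2)) ^ 4 - 1)) h9
      have h12 : (p ^ (f * 2)) ^ 2 = (p ^ f) ^ 4 := by rw [← pow_mul, ← pow_mul]; ring_nf
      have h13 : (p ^ (f * 2)) ^ 3 = (p ^ f) ^ 6 := by rw [← pow_mul, ← pow_mul]; ring_nf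
      have h14 : (p ^ (f * 2)) ^ 4 = (p ^ f) ^ 8 := by rw [← pow_mul, ← pow_mul]; ring_nf
      rw [h12, h13, h14] at h11
      exact n_psl4 hq5 (gcd_le' (by norm_num)) h11
    · exfalso
      obtain ⟨h, rfl, rfl⟩ : ∃ h, f = 5 * h ∧ b = 8 * h := ⟨2 * f - b - (b - f - (2 * f - b)), by omega, by omega⟩
      have hh : 0 < h := by omega
      exact H.k1 32 8 5 4 32 hh rfl rfl (by omega) (by omega) (by decide)
        (Or.inl ⟨by norm_num, by change 4 ≤ 5; norm_num⟩) (by decide) (by omega)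
    · exfalso
      obtain ⟨h, rfl, rfl⟩ : ∃ h, f = 3 * h ∧ b = 4 * h := ⟨b - f, by omega, by omega⟩
      have hh : 0 < h := by omega
      exact H.k1 20 4 3 5 20 hh rfl rfl (by omega) (by omega) (by decide)
        (Or.inl ⟨by norm_num, by change 5 ≤ 6; norm_num⟩) (by decide) (by omega)
    · exfalso
      obtain ⟨h, rfl, rfl⟩ : ∃ h, f = 7 * h ∧ b = 8 * h := ⟨b - f, by omega, by omega⟩
      have hh : 0 < h := by omega
      exact H.k1 48 8 7 6 48 hh rfl rfl (by omega) (by omega) (by decide)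
        (Or.inl ⟨by norm_num, by change 6 ≤ 7; norm_num⟩) (by decide) (by omega)
  · -- PSp
    have h4 : 2 * m * b = 8 * f := ht
    have hm2 : 2 ≤ m := H.S.cond.1
    rcases (show m = 2 ∨ m = 3 ∨ m = 4 ∨ m = 5 ∨ m = 6 by omega) with rfl | rfl | rfl | rfl | rfl
    · left
      rw [hfac]; change b * 4 ≤ _; omega
    · exfalso
      obtain ⟨h, rfl, rfl⟩ : ∃ h, f = 3 * h ∧ b = 4 * h := ⟨b - f, by omega, by omega⟩
      have hh : 0 < h := by omega
      exact H.k1 16 4 3 4 16 hh rfl rfl (by omega) (by omega) (by decide)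
        (Or.inl ⟨by norm_num, (K_psp (by norm_num)).2 (by norm_num)⟩) (by decide) (by omega)
    · right; right
      obtain rfl : b = f := by omega
      obtain rfl : u = p ^ b := hu
      refine ⟨by rw [hfac]; change b * 16 ≤ _; omega, ?_⟩
      have h5 : Nat.gcd 2 (p ^ b - 1) * c = (p ^ b) ^ (4 ^ 2) * prB (p ^ b) 4 := H.S.eq
      have h11 := w_eq H.S h5
      rw [prB_four] at h11
      exact n_psp4 hq5 (gcd_le' two_pos) h11
    · exfalso
      obtain ⟨h, rfl, rfl⟩ : ∃ h, f = 5 * h ∧ b = 4 * h := ⟨f - b, by omega, by omega⟩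
      have hh : 0 < h := by omega
      exact H.k1 32 4 5 8 32 hh rfl rfl (by omega) (by omega) (by decide)
        (Or.inl ⟨by norm_num, (K_psp (by norm_num)).2 (by norm_num)⟩) (by decide) (by omega)
    · exfalso
      obtain ⟨h, rfl, rfl⟩ : ∃ h, f = 3 * h ∧ b = 2 * h := ⟨f - b, by omega, by omega⟩
      have hh : 0 < h := by omega
      exact H.k1 20 2 3 10 20 hh rfl rfl (by omega) (by omega) (by decide)
        (Or.inl ⟨by norm_num, (K_psp (by norm_num)).2 (by norm_num)⟩) (by decide) (by omega)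
  · -- PΩ odd
    have h4 : 2 * m * b = 8 * f := ht
    have hm2 : 3 ≤ m := H.S.cond.1
    rcases (show m = 3 ∨ m = 4 ∨ m = 5 ∨ m = 6 by omega) with rfl | rfl | rfl | rfl
    · exfalso
      obtain ⟨h, rfl, rfl⟩ : ∃ h, f = 3 * h ∧ b = 4 * h := ⟨b - f, by omega, by omega⟩
      have hh : 0 < h := by omega
      exact H.k1 16 4 3 4 16 hh rfl rfl (by omega) (by omega) (by decide)
        (Or.inl ⟨by norm_num, (K_oodd (by norm_num)).2 (by norm_num)⟩) (by decide) (by omega)
    · right; right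
      obtain rfl : b = f := by omega
      obtain rfl : u = p ^ b := hu
      refine ⟨by rw [hfac]; change b * 16 ≤ _; omega, ?_⟩
      have h5 : 2 * c = (p ^ b) ^ (4 ^ 2) * prB (p ^ b) 4 := H.S.eq
      have h11 := w_eq H.S h5
      rw [prB_four] at h11
      exact n_psp4 hq5 le_rfl h11
    · exfalso
      obtain ⟨h, rfl, rfl⟩ : ∃ h, f = 5 * h ∧ b = 4 * h := ⟨f - b, by omega, by omega⟩
      have hh : 0 < h := by omega
      exact H.k1 32 4 5 8 32 hh rfl rfl (by omega) (by omega) (by decide)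
        (Or.inl ⟨by norm_num, (K_oodd (by norm_num)).2 (by norm_num)⟩) (by decide) (by omega)
    · exfalso
      obtain ⟨h, rfl, rfl⟩ : ∃ h, f = 3 * h ∧ b = 2 * h := ⟨f - b, by omega, by omega⟩
      have hh : 0 < h := by omega
      exact H.k1 20 2 3 10 20 hh rfl rfl (by omega) (by omega) (by decide)
        (Or.inl ⟨by norm_num, (K_oodd (by norm_num)).2 (by norm_num)⟩) (by decide) (by omega)
  · -- PSU
    have h4 : 2 * (n - (1 - n % 2)) * b = 8 * f := ht
    have hn2 : 3 ≤ n := H.S.cond.1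
    by_cases hn3 : n = 3
    · subst hn3
      left
      replace h4 : 6 * b = 8 * f := h4
      rw [hfac]; change b * 3 ≤ _; omega
    · exfalso
      set n' := n - (1 - n % 2) with hn'
      have hodd : n' % 2 = 1 := by omega
      have h5 : n' * b = 4 * f := by
        apply Nat.eq_of_mul_eq_mul_left (show 0 < 2 by norm_num)
        calc 2 * (n' * b) = 2 * n' * b := by ring
          _ = 8 * f := h4
          _ = _ := by ring
      have hc : Nat.Coprime 4 n' := by
        have h6 : Nat.Coprime 2 n' := by rw [Nat.coprime_two_left, Nat.odd_iff]; exact hodd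
        exact Nat.Coprime.mul_left h6 h6
      obtain ⟨h, rfl⟩ := hc.dvd_of_dvd_mul_left (Dvd.intro _ h5.symm)
      have hh : 0 < h := by omega
      have h6 : f = n' * h := by
        apply Nat.eq_of_mul_eq_mul_left (show 0 < 4 by norm_num)
        rw [← h5]; ring
      have hc16 : Nat.Coprime 16 n' := Nat.Coprime.mul_left hc hc
      exact H.k1 16 4 n' 4 16 hh h6 rfl (by omega) (by omega) (by decide)
        (Or.inl ⟨by norm_num, (K_psu (by norm_num)).2 (by right; left; exact ⟨by norm_num, by omega⟩)⟩)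
        (by rw [hc16]) (by omega)
  · -- PΩ⁺
    exfalso
    have h4 : 2 * (m - 1) * b = 8 * f := ht
    have hm2 : 4 ≤ m := H.S.cond.1
    rcases (show m = 4 ∨ m = 5 ∨ m = 6 by omega) with rfl | rfl | rfl
    · replace h4 : 6 * b = 8 * f := h4
      obtain ⟨h, rfl, rfl⟩ : ∃ h, f = 3 * h ∧ b = 4 * h := ⟨b - f, by omega, by omega⟩
      have hh : 0 < h := by omega
      exact H.k1 16 4 3 4 16 hh rfl rfl (by omega) (by omega) (by decide)
        (Or.inl ⟨by norm_num, (K_oplus (by norm_num) (by norm_num)).2 (by norm_num)⟩) (by decide) (by omega)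
    · replace h4 : 8 * b = 8 * f := h4
      exact H.k1 5 1 1 5 5 hf (by omega) (by omega) (by omega) (by omega) (by decide)
        (Or.inl ⟨by norm_num, (K_oplus (by norm_num) (by norm_num)).2 (by norm_num)⟩) (by decide) (by omega)
    · replace h4 : 10 * b = 8 * f := h4
      obtain ⟨h, rfl, rfl⟩ : ∃ h, f = 5 * h ∧ b = 4 * h := ⟨f - b, by omega, by omega⟩
      have hh : 0 < h := by omega
      exact H.k1 32 4 5 8 32 hh rfl rfl (by omega) (by omega) (by decide)
        (Or.inl ⟨by norm_num, (K_oplus (by norm_num) (by norm_num)).2 (by norm_num)⟩) (by decide) (by omega)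
  · -- PΩ⁻
    have h4 : 2 * m * b = 8 * f := ht
    have hm2 : 4 ≤ m := H.S.cond.1
    rcases (show m = 4 ∨ m = 5 ∨ m = 6 ∨ m = 7 by omega) with rfl | rfl | rfl | rfl
    · right; left
      obtain rfl : b = f := by omega
      obtain rfl : u = p ^ b := hu
      refine ⟨by rw [hfac]; change b * 12 ≤ _; omega, ?_⟩
      have h5 : Nat.gcd 4 ((p ^ b) ^ 4 + 1) * c =
        (p ^ b) ^ (4 * (4 - 1)) * (((p ^ b) ^ 4 + 1) * prB (p ^ b) (4 - 1)) := H.S.eq
      have h11 := w_eq H.S h5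
      rw [show 4 - 1 = 3 by norm_num, prB_three] at h11
      exact n_ominus4 hq5 (gcd_le' (by norm_num)) h11
    · exfalso
      obtain ⟨h, rfl, rfl⟩ : ∃ h, f = 5 * h ∧ b = 4 * h := ⟨f - b, by omega, by omega⟩
      have hh : 0 < h := by omega
      exact H.k1 32 4 5 8 32 hh rfl rfl (by omega) (by omega) (by decide)
        (Or.inl ⟨by norm_num, (K_ominus (by norm_num) (by norm_num)).2 (by norm_num)⟩) (by decide) (by omega)
    · exfalso
      obtain ⟨h, rfl, rfl⟩ : ∃ h, f = 3 * h ∧ b = 2 * h := ⟨f - b, by omega, by omega⟩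
      have hh : 0 < h := by omega
      exact H.k1 20 2 3 10 20 hh rfl rfl (by omega) (by omega) (by decide)
        (Or.inl ⟨by norm_num, (K_ominus (by norm_num) (by norm_num)).2 (by norm_num)⟩) (by decide) (by omega)
    · exfalso
      obtain ⟨h, rfl, rfl⟩ : ∃ h, f = 7 * h ∧ b = 4 * h := ⟨2 * b - f, by omega, by omega⟩
      have hh : 0 < h := by omega
      exact H.k1 48 4 7 12 48 hh rfl rfl (by omega) (by omega) (by decide)
        (Or.inl ⟨by norm_num, (K_ominus (by norm_num) (by norm_num)).2 (by norm_num)⟩) (by decide) (by omega)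
  · -- G₂
    left
    have h4 : 6 * b = 8 * f := ht
    rw [hfac]; change b * 6 ≤ _; omega
  · -- F₄
    exfalso
    have h4 : 12 * b = 8 * f := ht
    obtain ⟨h, rfl, rfl⟩ : ∃ h, f = 3 * h ∧ b = 2 * h := ⟨f - b, by omega, by omega⟩
    have hh : 0 < h := by omega
    exact H.k1 16 2 3 8 16 hh rfl rfl (by omega) (by omega) (by decide) K8 (by decide) (by omega)
  · -- E₆
    exfalso
    have h4 : 12 * b = 8 * f := ht
    obtain ⟨h, rfl, rfl⟩ : ∃ h, f = 3 * h ∧ b = 2 * h := ⟨f - b, by omega, by omega⟩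
    have hh : 0 < h := by omega
    exact H.k1 10 2 3 5 10 hh rfl rfl (by omega) (by omega) (by decide)
      (Or.inl ⟨by norm_num, Or.inr (Or.inl dvd_rfl)⟩) (by decide) (by omega)
  · -- ²E₆
    exfalso
    have h4 : 18 * b = 8 * f := ht
    obtain ⟨h, rfl, rfl⟩ : ∃ h, f = 9 * h ∧ b = 4 * h := ⟨f - 2 * b, by omega, by omega⟩
    have hh : 0 < h := by omega
    exact H.k1 32 4 9 8 32 hh rfl rfl (by omega) (by omega) (by decide)
      (Or.inl ⟨by norm_num, Or.inr (Or.inr (Or.inr (Or.inl dvd_rfl)))⟩) (by decide) (by omega)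
  · -- ³D₄
    left
    have h4 : 12 * b = 8 * f := ht
    rw [hfac]; change b * 12 ≤ _; omega
  · -- Sz
    left
    have h4 : 4 * b = 8 * f := ht
    rw [hfac]; change b * 2 ≤ _; omega
  · -- Ree
    left
    have h4 : 6 * b = 8 * f := ht
    rw [hfac]; change b * 3 ≤ _; omega
  · -- ²F₄
    left
    have h4 : 12 * b = 8 * f := ht
    rw [hfac]; change b * 12 ≤ _; omega

end Cfsg.Agent.H946.RgF4
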